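import Mathlib
import Cfsg.Agent.Lib.BlockH.Saturation
import Cfsg.Agent.Lib.Char.Complete

/-!
# Dihedral subgroups: rotations and reflections
-/

set_option linter.unusedSectionVars false
set_option linter.style.haveILetI false
set_option autoImplicit false

namespace Cfsg.Agent.Lib.Dih.Grp

open DihedralGroup

section Basic

variable {X : Type*} [Group X] {D : Subgroup X} {q : ℕ} (φ : DihedralGroup q ≃* D)

/-- The rotations. -/
def rr (i : ZMod q) : X := (φ (r i) : D)

/-- The reflections. -/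
def ss (i : ZMod q) : X := (φ (sr i) : D)

theorem rr_mem (i : ZMod q) : rr φ i ∈ D := (φ (r i)).2

theorem ss_mem (i : ZMod q) : ss φ i ∈ D := (φ (sr i)).2

theorem rr_add (i j : ZMod q) : rr φ (i + j) = rr φ i * rr φ j := by
  simp only [rr, ← r_mul_r, map_mul, Subgroup.coe_mul]

theorem rr_zero : rr φ 0 = 1 := by
  simp only [rr]
  have : (r 0 : DihedralGroup q) = 1 := rfl
  rw [this, map_one]
  rfl

theorem rr_neg (i : ZMod q) : rr φ (-i) = (rr φ i)⁻¹ := by
  rw [eq_inv_iff_mul_eq_one, ← rr_add, neg_add_cancel, rr_zero]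

theorem rr_injective : Function.Injective (rr φ) := by
  intro i j h
  have h1 : φ (r i) = φ (r j) := Subtype.ext h
  have h2 := φ.injective h1
  exact r.inj h2

theorem ss_mul_rr (i j : ZMod q) : ss φ i * rr φ j = ss φ (i + j) := by
  simp only [ss, rr, ← sr_mul_r, map_mul, Subgroup.coe_mul]

theorem ss_mul_ss (i j : ZMod q) : ss φ i * ss φ j = rr φ (j - i) := by
  simp only [ss, rr, ← sr_mul_sr, map_mul, Subgroup.coe_mul]

theorem ss_sq (i : ZMod q) : ss φ i * ss φ i = 1 := by
  rw [ss_mul_ss, sub_self, rr_zero]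

theorem ss_inv (i : ZMod q) : (ss φ i)⁻¹ = ss φ i := inv_eq_of_mul_eq_one_left (ss_sq φ i)

theorem ss_conj (j i : ZMod q) : ss φ j * rr φ i * (ss φ j)⁻¹ = rr φ (-i) := by
  rw [ss_inv, ss_mul_rr, ss_mul_ss]
  congr 1
  ring

theorem mem_D_iff {g : X} : g ∈ D ↔ (∃ i, g = rr φ i) ∨ ∃ i, g = ss φ i := by
  constructor
  · intro hg
    obtain ⟨t, ht⟩ := φ.surjective ⟨g, hg⟩
    have h1 : g = (φ t : D) := by rw [ht]
    rcases t with i | i
    · exact Or.inl ⟨i, h1⟩
    · exact Or.inr ⟨i, h1⟩
  · rintro (⟨i, rfl⟩ | ⟨i, rfl⟩)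
    · exact rr_mem φ i
    · exact ss_mem φ i

theorem rr_ne_ss (i j : ZMod q) : rr φ i ≠ ss φ j := by
  intro h
  have h1 : φ (r i) = φ (sr j) := Subtype.ext h
  have h2 := φ.injective h1
  cases h2

/-- The homomorphism from the cyclic group. -/
def rrHom : Multiplicative (ZMod q) →* X where
  toFun i := rr φ (Multiplicative.toAdd i)
  map_one' := rr_zero φ
  map_mul' a b := rr_add φ _ _

@[simp] theorem rrHom_apply (i : Multiplicative (ZMod q)) : rrHom φ i = rr φ (Multiplicative.toAdd i) := rfl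

theorem rr_pow (i : ZMod q) (k : ℕ) : rr φ i ^ k = rr φ (k • i) := by
  induction k with
  | zero => simp [rr_zero]
  | succ k ih =>
    rw [pow_succ, ih, ← rr_add, succ_nsmul]

end Basic

section Two

variable {X : Type*} [Group X] {D : Subgroup X} {q h m : ℕ} [NeZero q] (φ : DihedralGroup q ≃* D)

/-- The central involution. -/
def zz (φ : DihedralGroup q ≃* D) (h : ℕ) : X := rr φ ((2 * h : ℕ) : ZMod q)

theorem neg_two (hq : q = 4 * h) : -((2 * h : ℕ) : ZMod q) = ((2 * h : ℕ) : ZMod q) := by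
  rw [neg_eq_iff_add_eq_zero, ← Nat.cast_add, ZMod.natCast_eq_zero_iff]
  exact ⟨1, by omega⟩

theorem two_ne (hq : q = 4 * h) (hh : 1 ≤ h) : ((2 * h : ℕ) : ZMod q) ≠ 0 := by
  rw [Ne, ZMod.natCast_eq_zero_iff]
  intro h3
  have := Nat.le_of_dvd (by omega) h3
  omega

theorem eq_two_of_add_self (hq : q = 4 * h) {k : ZMod q} (hk : k ≠ 0) (h2 : k + k = 0) :
    k = ((2 * h : ℕ) : ZMod q) := by
  have h1 : ((k.val + k.val : ℕ) : ZMod q) = 0 := by
    rw [Nat.cast_add, ZMod.natCast_zmod_val, h2]
  rw [ZMod.natCast_eq_zero_iff] at h1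
  have h3 := ZMod.val_lt k
  have h4 : k.val ≠ 0 := by
    intro h5
    exact hk ((ZMod.val_eq_zero k).mp h5)
  obtain ⟨t, ht⟩ := h1
  have h5 : t = 1 := by
    rcases t with _ | _ | t
    · omega
    · rfl
    · have : q * (t + 1 + 1) = q * t + q * 2 := by ring
      have h6 : 0 ≤ q * t := Nat.zero_le _
      omega
  have h6 : k.val = 2 * h := by
    rw [h5] at ht
    omega
  rw [← h6, ZMod.natCast_zmod_val]

theorem zz_commute (hq : q = 4 * h) {g : X} (hg : g ∈ D) : Commute g (zz φ h) := by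
  rcases (mem_D_iff φ).mp hg with ⟨i, rfl⟩ | ⟨i, rfl⟩
  · change rr φ i * rr φ _ = rr φ _ * rr φ i
    rw [← rr_add, ← rr_add, add_comm]
  · have h1 := ss_conj φ i ((2 * h : ℕ) : ZMod q)
    rw [neg_two hq] at h1
    change ss φ i * rr φ _ = rr φ _ * ss φ i
    calc ss φ i * rr φ ((2 * h : ℕ) : ZMod q)
        = (ss φ i * rr φ ((2 * h : ℕ) : ZMod q) * (ss φ i)⁻¹) * ss φ i := by group
      _ = _ := by rw [h1]

/-- Orders of rotations are powers of two. -/
theorem exists_order_rr (hq2 : q = 2 ^ m) (i : ZMod q) : ∃ a : ℕ, orderOf (rr φ i) = 2 ^ a := by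
  have h1 : rr φ i ^ q = 1 := by
    rw [rr_pow, nsmul_eq_mul, ZMod.natCast_self, zero_mul, rr_zero]
  have h2 := orderOf_dvd_of_pow_eq_one h1
  have h3 : orderOf (rr φ i) ∣ 2 ^ m := by
    rw [← hq2]
    exact h2
  obtain ⟨a, -, ha⟩ := (Nat.dvd_prime_pow Nat.prime_two).mp h3
  exact ⟨a, ha⟩

/-- A suitable power of a nontrivial rotation is the central involution. -/
theorem pow_eq_zz (hq : q = 4 * h) (hq2 : q = 2 ^ m) {i : ZMod q} (hi : i ≠ 0) :
    ∃ a : ℕ, orderOf (rr φ i) = 2 ^ (a + 1) ∧ rr φ i ^ 2 ^ a = zz φ h := by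
  obtain ⟨a, ha⟩ := exists_order_rr φ hq2 i
  have hne : rr φ i ≠ 1 := by
    intro h1
    rw [← rr_zero φ] at h1
    exact hi (rr_injective φ h1)
  have ha0 : a ≠ 0 := by
    rintro rfl
    rw [pow_zero, orderOf_eq_one_iff] at ha
    exact hne ha
  obtain ⟨b, rfl⟩ := Nat.exists_eq_succ_of_ne_zero ha0
  refine ⟨b, ha, ?_⟩
  have h1 : rr φ i ^ 2 ^ b = rr φ ((2 ^ b) • i) := rr_pow φ i _
  have h2 : (2 ^ b) • i ≠ 0 := by
    intro h3
    have h4 : rr φ i ^ 2 ^ b = 1 := by rw [h1, h3, rr_zero]
    have h5 := orderOf_dvd_of_pow_eq_one h4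
    rw [ha] at h5
    have h6 := Nat.le_of_dvd (by positivity) h5
    have h7 : 2 ^ b < 2 ^ (b + 1) := Nat.pow_lt_pow_right (by norm_num) (by omega)
    simp only [Nat.succ_eq_add_one] at h6
    omega
  have h3 : (2 ^ b) • i + (2 ^ b) • i = 0 := by
    have h4 : rr φ ((2 ^ b) • i + (2 ^ b) • i) = 1 := by
      rw [rr_add, ← h1, ← pow_add, ← two_mul, ← pow_succ', ← Nat.succ_eq_add_one, ← ha, pow_orderOf_eq_one]
    rw [← rr_zero φ] at h4
    exact rr_injective φ h4
  rw [h1, zz, eq_two_of_add_self hq h2 h3]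

/-- **Control of fusion by the centralizer of the central involution.** -/
theorem commute_zz_of_conj (hq : q = 4 * h) (hq2 : q = 2 ^ m) {i j : ZMod q} (hi : i ≠ 0) (hj : j ≠ 0) {t : X}
    (ht : t * rr φ i * t⁻¹ = rr φ j) : Commute t (zz φ h) := by
  obtain ⟨a, ha, h1⟩ := pow_eq_zz φ hq hq2 hi
  obtain ⟨b, hb, h2⟩ := pow_eq_zz φ hq hq2 hj
  have h3 : orderOf (rr φ j) = orderOf (rr φ i) := by
    rw [← ht]
    have : t * rr φ i * t⁻¹ = (MulAut.conj t) (rr φ i) := rfl
    rw [this, MulEquiv.orderOf_eq]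
  have h4 : a = b := by
    rw [ha, hb] at h3
    have := Nat.pow_right_injective (le_refl 2) h3
    omega
  subst h4
  have h5 : t * zz φ h * t⁻¹ = zz φ h := by
    rw [← h1]
    conv_rhs => rw [h1, ← h2, ← ht]
    rw [conj_pow]
  calc t * zz φ h = (t * zz φ h * t⁻¹) * t := by group
    _ = zz φ h * t := by rw [h5]

/-- The central involution is a power of a nontrivial rotation: centralizers are contained in its centralizer. -/
theorem commute_zz_of_commute (hq : q = 4 * h) (hq2 : q = 2 ^ m) {i : ZMod q} (hi : i ≠ 0) {t : X}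
    (ht : Commute t (rr φ i)) : Commute t (zz φ h) := by
  obtain ⟨a, -, h1⟩ := pow_eq_zz φ hq hq2 hi
  rw [← h1]
  exact ht.pow_right _

end Two

section Central

variable {X : Type*} [Group X] [Finite X] {D : Subgroup X} {q h m : ℕ} [NeZero q] (φ : DihedralGroup q ≃* D)

/-- **An element of odd order normalizing a subgroup of `D` and commuting with the central involution
centralizes the subgroup.** -/
theorem mem_centralizer_of_odd (hq : q = 4 * h) (hh : 1 ≤ h) (hq2 : q = 2 ^ m) {Q : Subgroup X} (hQ : Q ≤ D) {g : X}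
    (hg : g ∈ Subgroup.normalizer (Q : Set X)) (hodd : ¬ 2 ∣ orderOf g) (hz : Commute g (zz φ h)) :
    g ∈ Subgroup.centralizer (Q : Set X) := by
  classical
  cases nonempty_fintype X
  have hgQ : ∀ y ∈ Q, g * y * g⁻¹ ∈ Q := fun y hy => (Subgroup.mem_normalizer_iff.mp hg y).mp hy
  have hgQ' : ∀ y, g * y * g⁻¹ ∈ Q → y ∈ Q := fun y hy => (Subgroup.mem_normalizer_iff.mp hg y).mpr hy
  set A : Subgroup X := (rrHom φ).range with hA
  have hAmem : ∀ i, rr φ i ∈ A := fun i => ⟨Multiplicative.ofAdd i, rfl⟩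
  have hAmem' : ∀ {y}, y ∈ A → ∃ i, y = rr φ i := by
    rintro y ⟨i, rfl⟩
    exact ⟨Multiplicative.toAdd i, rfl⟩
  have hAss : ∀ j, ss φ j ∉ A := by
    intro j hj
    obtain ⟨i, hi⟩ := hAmem' hj
    exact rr_ne_ss φ i j hi.symm
  set C : Subgroup X := Q ⊓ A with hC
  have hCyc : IsCyclic C := by
    haveI : IsCyclic A := by
      haveI : IsCyclic (Multiplicative (ZMod q)) := inferInstance
      exact isCyclic_of_surjective (rrHom φ).rangeRestrict (rrHom φ).rangeRestrict_surjective
    exact isCyclic_of_injective (Subgroup.inclusion (inf_le_right : C ≤ A)) (Subgroup.inclusion_injective _)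
  -- rotations of order at most two
  have hrot2 : ∀ i, rr φ i * rr φ i = 1 → g * rr φ i * g⁻¹ = rr φ i := by
    intro i hi
    by_cases hi0 : i = 0
    · rw [hi0, rr_zero]
      group
    · have h1 : i + i = 0 := by
        have h2 : rr φ (i + i) = rr φ 0 := by rw [rr_add, hi, rr_zero]
        exact rr_injective φ h2
      have h2 : rr φ i = zz φ h := by rw [zz, eq_two_of_add_self hq hi0 h1]
      rw [h2]
      calc g * zz φ h * g⁻¹ = zz φ h * g * g⁻¹ := by rw [hz.eq]
        _ = zz φ h := by group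
  -- conjugation maps `C` into itself
  have hgC : ∀ y ∈ C, g * y * g⁻¹ ∈ C := by
    rintro y ⟨hyQ, hyA⟩
    obtain ⟨i, rfl⟩ := hAmem' hyA
    refine ⟨hgQ _ hyQ, ?_⟩
    by_cases hi : rr φ i * rr φ i = 1
    · rw [hrot2 i hi]
      exact hAmem i
    · have h1 : g * rr φ i * g⁻¹ ∈ D := hQ (hgQ _ hyQ)
      rcases (mem_D_iff φ).mp h1 with ⟨i', hi'⟩ | ⟨j, hj⟩
      · rw [hi']
        exact hAmem i'
      · exfalso
        apply hi
        have h2 : (g * rr φ i * g⁻¹) * (g * rr φ i * g⁻¹) = 1 := by rw [hj, ss_sq]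
        have h3 : g * (rr φ i * rr φ i) * g⁻¹ = 1 := by
          rw [← h2]
          group
        have h4 : rr φ i * rr φ i = g⁻¹ * (g * (rr φ i * rr φ i) * g⁻¹) * g := by group
        rw [h4, h3]
        group
  have hmap : C.map (MulAut.conj g).toMonoidHom = C := by
    refine Subgroup.eq_of_le_of_card_ge ?_ ?_
    · rintro _ ⟨y, hy, rfl⟩
      exact hgC y hy
    · rw [Subgroup.card_map_of_injective (MulAut.conj g).injective]
  have hgN : g ∈ Subgroup.normalizer (C : Set X) :=
    Cfsg.Agent.Lib.BlockH.Saturation.mem_normalizer_of_map_eq hmap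
  have hgC' : ∀ y, g * y * g⁻¹ ∈ C → y ∈ C := fun y hy => (Subgroup.mem_normalizer_iff.mp hgN y).mpr hy
  -- `g` centralizes `C`
  have hcent : ∀ y ∈ C, g * y * g⁻¹ = y := by
    set T : Subgroup X := Subgroup.normalizer (C : Set X) with hT
    set α : MulAut C := Cfsg.Agent.Lib.BlockH.Saturation.conjAct T C le_rfl ⟨g, hgN⟩ with hα
    have h1 : α ^ orderOf g = 1 := by
      rw [hα, ← map_pow]
      have h2 : (⟨g, hgN⟩ : T) ^ orderOf g = 1 := by
        apply Subtype.ext
        simp [pow_orderOf_eq_one]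
      rw [h2, map_one]
    have h2 := orderOf_dvd_of_pow_eq_one h1
    have h3 : orderOf α ∣ Nat.card (MulAut C) := orderOf_dvd_natCard α
    rw [IsCyclic.card_mulAut] at h3
    have h4 : Nat.card C ∣ 2 * q := by
      have h5 : Nat.card C ∣ Nat.card D := Subgroup.card_dvd_of_le (inf_le_left.trans hQ)
      have h6 : Nat.card D = 2 * q := by
        rw [← Nat.card_congr φ.toEquiv, DihedralGroup.nat_card]
      rwa [h6] at h5
    have h4' : Nat.card C ∣ 2 ^ (m + 1) := by
      rw [pow_succ', ← hq2]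
      exact h4
    obtain ⟨a, -, ha⟩ := (Nat.dvd_prime_pow Nat.prime_two).mp h4'
    have h5 : ∃ b, Nat.totient (Nat.card C) = 2 ^ b := by
      rw [ha]
      rcases a with _ | a
      · exact ⟨0, by simp⟩
      · exact ⟨a, by rw [Nat.totient_prime_pow_succ Nat.prime_two]; simp⟩
    obtain ⟨b, hb⟩ := h5
    rw [hb] at h3
    have h6 : Nat.Coprime (orderOf g) (2 ^ b) := by
      apply Nat.Coprime.pow_right
      rw [Nat.coprime_comm]
      exact (Nat.Prime.coprime_iff_not_dvd Nat.prime_two).mpr hodd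
    have h7 : orderOf α = 1 := Nat.eq_one_of_dvd_coprimes h6 h2 h3
    have h8 : α = 1 := orderOf_eq_one_iff.mp h7
    intro y hy
    have h9 := congrArg (fun β : MulAut C => ((β ⟨y, hy⟩ : C) : X)) h8
    exact h9
  -- the reflections
  have hrefl : ∀ j, ss φ j ∈ Q → g * ss φ j * g⁻¹ = ss φ j := by
    intro j hj
    have h1 : g * ss φ j * g⁻¹ ∈ Q := hgQ _ hj
    have h2 : g * ss φ j * g⁻¹ ∉ A := by
      intro h3
      have h4 := hgC' _ ⟨h1, h3⟩
      exact hAss j h4.2
    rcases (mem_D_iff φ).mp (hQ h1) with ⟨i, hi⟩ | ⟨j', hj'⟩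
    · exact absurd (hi ▸ hAmem i) h2
    set c := rr φ (j' - j) with hc
    have hcC : c ∈ C := by
      refine ⟨?_, hAmem _⟩
      rw [hc, ← ss_mul_ss]
      rw [hj'] at h1
      exact Subgroup.mul_mem _ hj h1
    have h3 : g * ss φ j * g⁻¹ = ss φ j * c := by
      rw [hj', hc, ← ss_mul_ss, ← mul_assoc, ss_sq, one_mul]
    have h4 : ∀ k : ℕ, g ^ k * ss φ j * (g ^ k)⁻¹ = ss φ j * c ^ k := by
      intro k
      induction k with
      | zero => simp
      | succ k ih =>
        calc g ^ (k + 1) * ss φ j * (g ^ (k + 1))⁻¹ = g * (g ^ k * ss φ j * (g ^ k)⁻¹) * g⁻¹ := by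
              rw [pow_succ']
              group
          _ = (g * ss φ j * g⁻¹) * (g * c ^ k * g⁻¹) := by
              rw [ih]
              group
          _ = ss φ j * c * c ^ k := by
              rw [h3, ← conj_pow, hcent c hcC]
          _ = ss φ j * c ^ (k + 1) := by
              rw [pow_succ', mul_assoc]
    have h5 := h4 (orderOf g)
    rw [pow_orderOf_eq_one, one_mul, inv_one, mul_one] at h5
    have h6 : c ^ orderOf g = 1 := by
      have := mul_left_cancel (a := ss φ j) (b := c ^ orderOf g) (c := 1) (by rw [mul_one]; exact h5.symm)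
      exact this
    obtain ⟨a, ha⟩ := exists_order_rr φ hq2 (j' - j)
    have h7 := orderOf_dvd_of_pow_eq_one h6
    rw [hc, ha] at h7
    have h8 : Nat.Coprime (orderOf g) (2 ^ a) := by
      apply Nat.Coprime.pow_right
      rw [Nat.coprime_comm]
      exact (Nat.Prime.coprime_iff_not_dvd Nat.prime_two).mpr hodd
    have h9 : 2 ^ a = 1 := Nat.Coprime.eq_one_of_dvd h8.symm h7
    have h10 : c = 1 := by
      rw [← orderOf_eq_one_iff, hc, ha]
      exact h9
    rw [h3, h10, mul_one]
  rw [Subgroup.mem_centralizer_iff]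
  intro y hy
  have hyD : y ∈ D := hQ hy
  have h1 : g * y * g⁻¹ = y := by
    rcases (mem_D_iff φ).mp hyD with ⟨i, rfl⟩ | ⟨j, rfl⟩
    · exact hcent _ ⟨hy, hAmem i⟩
    · exact hrefl j hy
  calc y * g = (g * y * g⁻¹) * g := by rw [h1]
    _ = g * y := by group

end Central

section Orth

open Cfsg
open scoped ComplexConjugate

variable {q : ℕ} [NeZero q]

/-- The centralizer of a rotation in the dihedral group. -/
theorem card_centralizer_r (j : ZMod q) :
    Nat.card (Subgroup.centralizer ({(r j : DihedralGroup q)} : Set (DihedralGroup q))) =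
      q + open Classical in (if j = -j then q else 0) := by
  classical
  let e : ZMod q ⊕ ZMod q ≃ DihedralGroup q :=
    { toFun := Sum.elim r sr
      invFun := fun t => match t with
        | r i => Sum.inl i
        | sr i => Sum.inr i
      left_inv := by rintro (i | i) <;> rfl
      right_inv := by rintro (i | i) <;> rfl }
  have h1 : Nat.card (Subgroup.centralizer ({(r j : DihedralGroup q)} : Set (DihedralGroup q))) =
      Nat.card {s : ZMod q ⊕ ZMod q // e s * r j = r j * e s} := by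
    refine Nat.card_congr (Equiv.subtypeEquiv e.symm fun t => ?_)
    simp only [Equiv.apply_symm_apply]
    exact Subgroup.mem_centralizer_singleton_iff
  rw [h1, Nat.card_eq_fintype_card, Fintype.card_subtype, Finset.card_filter, Fintype.sum_sum_type]
  have h2 : ∀ i : ZMod q, (if e (Sum.inl i) * r j = r j * e (Sum.inl i) then 1 else 0) = 1 := by
    intro i
    rw [if_pos]
    change r i * r j = r j * r i
    rw [r_mul_r, r_mul_r, add_comm]
  have h3 : ∀ i : ZMod q, (if e (Sum.inr i) * r j = r j * e (Sum.inr i) then 1 else 0) = if j = -j then 1 else 0 := by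
    intro i
    have h4 : e (Sum.inr i) * r j = r j * e (Sum.inr i) ↔ j = -j := by
      change sr i * r j = r j * sr i ↔ _
      rw [sr_mul_r, r_mul_sr]
      constructor
      · intro h5
        have h6 := sr.inj h5
        linear_combination h6
      · intro h5
        congr 1
        linear_combination h5
    simp only [h4]
  simp_rw [h2, h3]
  simp only [Finset.sum_const, Finset.card_univ, ZMod.card, smul_eq_mul, mul_one]
  split_ifs <;> simp

variable {A : Type*} [Group A] [Fintype A] [Fintype (IrrCharacter A)]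

theorem isConj_rr_iff (φ : DihedralGroup q ≃* A) (j j' : ZMod q) :
    IsConj (φ (r j)) (φ (r j')) ↔ j' = j ∨ j' = -j := by
  rw [isConj_iff]
  constructor
  · rintro ⟨c, hc⟩
    obtain ⟨t, rfl⟩ := φ.surjective c
    rw [← map_inv, ← map_mul, ← map_mul] at hc
    have h1 := φ.injective hc
    rcases t with i | i
    · left
      have h2 : (r i : DihedralGroup q)⁻¹ = r (-i) := rfl
      rw [h2, r_mul_r, r_mul_r] at h1
      have h3 := r.inj h1
      rw [← h3]
      ring
    · right
      have h2 : (sr i : DihedralGroup q)⁻¹ = sr i := rfl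
      rw [h2, sr_mul_r, sr_mul_sr] at h1
      have h3 := r.inj h1
      rw [← h3]
      ring
  · rintro (rfl | rfl)
    · exact ⟨1, by simp⟩
    · refine ⟨φ (sr 0), ?_⟩
      rw [← map_inv, ← map_mul, ← map_mul]
      congr 1
      have h2 : (sr 0 : DihedralGroup q)⁻¹ = sr 0 := rfl
      rw [h2, sr_mul_r, sr_mul_sr]
      congr 1
      ring

open Cfsg.Agent.Lib.Char.Complete in
/-- **Column orthogonality for rotations.** -/
theorem sum_irr_rr (φ : DihedralGroup q ≃* A) (j j' : ZMod q) :
    ∑ ν : IrrCharacter A, (ν : A → ℂ) (φ (r j)) * conj ((ν : A → ℂ) (φ (r j'))) =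
      (q : ℂ) * ((if j' = j then 1 else 0) + (if j' = -j then 1 else 0)) := by
  classical
  rw [sum_irr_mul_conj]
  have hc : Nat.card (Subgroup.centralizer ({φ (r j')} : Set A)) =
      Nat.card (Subgroup.centralizer ({(r j' : DihedralGroup q)} : Set (DihedralGroup q))) := by
    refine Nat.card_congr (Equiv.subtypeEquiv φ.symm.toEquiv fun t => ?_)
    simp only [Subgroup.mem_centralizer_singleton_iff]
    constructor
    · intro h
      apply φ.injective
      simp [h]
    · intro h
      have h1 := congrArg φ h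
      simpa using h1
  by_cases h : IsConj (φ (r j)) (φ (r j'))
  · rw [if_pos h, hc, card_centralizer_r]
    have h1 := (isConj_rr_iff φ j j').mp h
    by_cases h2 : j' = j
    · by_cases h3 : j' = -j
      · have h4 : j' = -j' := by
          nth_rw 2 [h2]
          exact h3
        rw [if_pos h4, if_pos h2, if_pos h3]
        push_cast
        ring
      · have h4 : ¬ j' = -j' := by
          intro h5
          apply h3
          nth_rw 1 [h5]
          rw [h2]
        rw [if_neg h4, if_pos h2, if_neg h3]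
        push_cast
        ring
    · have h3 : j' = -j := h1.resolve_left h2
      have h4 : ¬ j' = -j' := by
        intro h5
        apply h2
        have h6 : -j' = j := by rw [h3, neg_neg]
        rw [← h6]
        exact h5
      rw [if_neg h4, if_neg h2, if_pos h3]
      push_cast
      ring
  · rw [if_neg h]
    have h1 := fun h2 => h ((isConj_rr_iff φ j j').mpr h2)
    have h2 : ¬ j' = j := fun h3 => h1 (Or.inl h3)
    have h3 : ¬ j' = -j := fun h4 => h1 (Or.inr h4)
    rw [if_neg h2, if_neg h3]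
    simp

end Orth

end Cfsg.Agent.Lib.Dih.Grp
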