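import Mathlib
import Cfsg.Agent.Lib.BP.Nil4
import Cfsg.Agent.Lib.Star.Gen
import Cfsg.Agent.Lib.Contrib.Sec
import Cfsg.Agent.Lib.Dih.Grp

/-!
# Sections of a nilpotent block
-/

set_option linter.unusedSectionVars false
set_option linter.style.haveILetI false
set_option autoImplicit false

namespace Cfsg.Agent.Lib.Dih.Sect

open Cfsg MonoidAlgebra
open Cfsg.Agent.Lib.Blocks.Local Cfsg.Agent.Lib.Blocks.Central Cfsg.Agent.Lib.Blocks.Main
open Cfsg.Agent.Lib.BlockH.Transport Cfsg.Agent.Lib.BlockH.Subpair Cfsg.Agent.Lib.BlockH.SubpairLE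
open Cfsg.Agent.Lib.BP.StarDefs Cfsg.Agent.Lib.BP.Star1
open Cfsg.Agent.Lib.BP.Star2 Cfsg.Agent.Lib.BP.Star3 Cfsg.Agent.Lib.BP.Rob1 Cfsg.Agent.Lib.BP.Rob2
open Cfsg.Agent.Lib.BP.Nil1 Cfsg.Agent.Lib.BP.Nil2 Cfsg.Agent.Lib.BP.Nil3 Cfsg.Agent.Lib.BP.Nil4
open Cfsg.Agent.Lib.Char.Basic Cfsg.Agent.Lib.Char.Complete Cfsg.Agent.Lib.Char.Ortho
open Cfsg.Agent.Lib.Contrib.Proj Cfsg.Agent.Lib.Contrib.Sec
open scoped ComplexConjugate

universe u

variable {H : Type u} [Group H] [Fintype H] {p : ℕ} {M : Ideal AlgInt} [Fact p.Prime]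

attribute [local instance] fK fIrr fBl

/-- A section value is a linear functional of the values on the section. -/
theorem Fs_rep (hM : IsPModular p M) {u : H} {c : Set (IrrCharacter (cZ u))} (hc : IsPBlock M c) (y : cZ u)
    (hy : ¬ p ∣ orderOf y) :
    ∃ a : cZ u → ℂ, (∀ k, p ∣ orderOf k → a k = 0) ∧ ∀ φ : H → ℂ, IsClassFunction H φ →
      Fs φ u c y = ∑ k : cZ u, a k * φ (u * k) := by
  classical
  refine ⟨fun k => if ¬ p ∣ orderOf k then (Nat.card (cZ u) : ℂ)⁻¹ * ∑ ξ : IrrCharacter (cZ u),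
      (if ξ ∈ c then conj ((ξ : cZ u → ℂ) k) * Cfsg.pRegularPart p (ξ : cZ u → ℂ) y else 0) else 0, ?_, ?_⟩
  · intro k hk
    simp only [not_not, hk, not_true_eq_false, if_false]
  · intro φ hφ
    rw [show Fs φ u c y = _ from Fs_eq_blockPart hφ u c y]
    set f : cZ u → ℂ := fun k => φ (u * k) with hf
    have h1 : blockPart c f y = PP p c f y := by
      rw [PP, Cfsg.Agent.Lib.BlockH.Regular.pRegularPart_apply, if_pos (show IsPRegular p y from hy)]
    have h2 : PP p c f = PP p c (Cfsg.pRegularPart p f) := by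
      apply PP_congr hM hc
      intro t ht
      rw [Cfsg.Agent.Lib.BlockH.Regular.pRegularPart_apply, if_pos (show IsPRegular p t from ht)]
    rw [h1, h2, PP_apply]
    have h3 : ∀ ξ : IrrCharacter (cZ u), (if ξ ∈ c then classInner (Cfsg.pRegularPart p f) (ξ : cZ u → ℂ) *
        Cfsg.pRegularPart p (ξ : cZ u → ℂ) y else 0) = (Nat.card (cZ u) : ℂ)⁻¹ * ∑ k : cZ u,
        (if ¬ p ∣ orderOf k then (if ξ ∈ c then conj ((ξ : cZ u → ℂ) k) * Cfsg.pRegularPart p (ξ : cZ u → ℂ) y else 0) * f k else 0) := by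
      intro ξ
      by_cases hξ : ξ ∈ c
      · simp only [if_pos hξ]
        rw [classInner_def, mul_assoc, Finset.sum_mul]
        congr 1
        refine Finset.sum_congr rfl fun k _ => ?_
        rw [Cfsg.Agent.Lib.BlockH.Regular.pRegularPart_apply]
        by_cases hk : ¬ p ∣ orderOf k
        · have hk' : IsPRegular p k := hk
          rw [if_pos hk', if_pos hk]
          ring
        · have hk' : ¬ IsPRegular p k := hk
          rw [if_neg hk', if_neg hk]
          simp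
      · simp only [if_neg hξ]
        simp
    rw [Finset.sum_congr rfl fun ξ _ => h3 ξ, ← Finset.mul_sum, Finset.sum_comm, Finset.mul_sum]
    refine Finset.sum_congr rfl fun k _ => ?_
    by_cases hk : ¬ p ∣ orderOf k
    · simp only [if_pos hk]
      rw [← Finset.sum_mul, mul_assoc]
    · simp only [if_neg hk]
      simp

/-- Expansion of a sum of products of sections. -/
theorem sum_Fs_expand {u v : H} {c : Set (IrrCharacter (cZ u))} {c' : Set (IrrCharacter (cZ v))}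
    {y : cZ u} {y' : cZ v} {a : cZ u → ℂ} {a' : cZ v → ℂ}
    (ha : ∀ φ : H → ℂ, IsClassFunction H φ → Fs φ u c y = ∑ k : cZ u, a k * φ (u * k))
    (ha' : ∀ φ : H → ℂ, IsClassFunction H φ → Fs φ v c' y' = ∑ k : cZ v, a' k * φ (v * k))
    {I : Type*} [Fintype I] (ϑ : I → H → ℂ) (hϑ : ∀ i, IsClassFunction H (ϑ i)) :
    ∑ i, Fs (ϑ i) u c y * conj (Fs (ϑ i) v c' y') =
      ∑ k : cZ u, ∑ k' : cZ v, a k * conj (a' k') * ∑ i, ϑ i (u * k) * conj (ϑ i (v * k')) := by
  have h1 : ∀ i, Fs (ϑ i) u c y * conj (Fs (ϑ i) v c' y') =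
      ∑ k : cZ u, ∑ k' : cZ v, a k * conj (a' k') * (ϑ i (u * k) * conj (ϑ i (v * k'))) := by
    intro i
    rw [ha _ (hϑ i), ha' _ (hϑ i), map_sum, Finset.sum_mul_sum]
    refine Finset.sum_congr rfl fun k _ => Finset.sum_congr rfl fun k' _ => ?_
    rw [map_mul]
    ring
  simp_rw [h1]
  rw [Finset.sum_comm]
  refine Finset.sum_congr rfl fun k _ => ?_
  rw [Finset.sum_comm]
  refine Finset.sum_congr rfl fun k' _ => ?_
  rw [Finset.mul_sum]

/-- **Comparison of sums of products of sections.** -/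
theorem sum_Fs_compare (hM : IsPModular p M) {u v : H} {c : Set (IrrCharacter (cZ u))}
    {c' : Set (IrrCharacter (cZ v))} (hc : IsPBlock M c) (hc' : IsPBlock M c') {y : cZ u} {y' : cZ v}
    (hy : ¬ p ∣ orderOf y) (hy' : ¬ p ∣ orderOf y') {I I' : Type*} [Fintype I] [Fintype I']
    (ϑ : I → H → ℂ) (ϑ' : I' → H → ℂ) (hϑ : ∀ i, IsClassFunction H (ϑ i)) (hϑ' : ∀ i, IsClassFunction H (ϑ' i))
    (hyp : ∀ (k : cZ u) (k' : cZ v), ¬ p ∣ orderOf k → ¬ p ∣ orderOf k' →
      ∑ i, ϑ i (u * k) * conj (ϑ i (v * k')) = ∑ i, ϑ' i (u * k) * conj (ϑ' i (v * k'))) :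
    ∑ i, Fs (ϑ i) u c y * conj (Fs (ϑ i) v c' y') = ∑ i, Fs (ϑ' i) u c y * conj (Fs (ϑ' i) v c' y') := by
  obtain ⟨a, ha0, ha⟩ := Fs_rep hM hc y hy
  obtain ⟨a', ha0', ha'⟩ := Fs_rep hM hc' y' hy'
  rw [sum_Fs_expand ha ha' ϑ hϑ, sum_Fs_expand ha ha' ϑ' hϑ']
  refine Finset.sum_congr rfl fun k _ => Finset.sum_congr rfl fun k' _ => ?_
  by_cases hk : p ∣ orderOf k
  · rw [ha0 k hk]
    simp
  by_cases hk' : p ∣ orderOf k'
  · rw [ha0' k' hk']
    simp
  rw [hyp k k' hk hk']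

/-- Vanishing of the sums with a weight orthogonal to the section. -/
theorem sum_Fs_zero (hM : IsPModular p M) {u : H} {c : Set (IrrCharacter (cZ u))} (hc : IsPBlock M c) {y : cZ u}
    (hy : ¬ p ∣ orderOf y) {I : Type*} [Fintype I] (ϑ : I → H → ℂ) (hϑ : ∀ i, IsClassFunction H (ϑ i)) (Y : I → ℂ)
    (hyp : ∀ k : cZ u, ¬ p ∣ orderOf k → ∑ i, ϑ i (u * k) * Y i = 0) :
    ∑ i, Fs (ϑ i) u c y * Y i = 0 := by
  obtain ⟨a, ha0, ha⟩ := Fs_rep hM hc y hy
  simp_rw [fun i => ha _ (hϑ i), Finset.sum_mul]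
  rw [Finset.sum_comm]
  refine Finset.sum_eq_zero fun k _ => ?_
  by_cases hk : p ∣ orderOf k
  · rw [ha0 k hk]
    simp
  · have h1 := hyp k hk
    calc ∑ i, a k * ϑ i (u * k) * Y i = a k * ∑ i, ϑ i (u * k) * Y i := by
          rw [Finset.mul_sum]
          refine Finset.sum_congr rfl fun i _ => ?_
          ring
      _ = 0 := by rw [h1, mul_zero]

/-- Expansion of a class function. -/
theorem Fs_expand [Fintype (IrrCharacter H)] {φ : H → ℂ} (hφ : IsClassFunction H φ) (r : H)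
    (c : Set (IrrCharacter (cZ r))) (y : H) :
    Fs φ r c y = ∑ τ : IrrCharacter H, classInner φ (τ : H → ℂ) * Fs (τ : H → ℂ) r c y := by
  simp only [Fs, lin_apply, Finset.mul_sum]
  rw [Finset.sum_comm]
  refine Finset.sum_congr rfl fun g _ => ?_
  have h1 := congrFun (classFunction_eq_sum hφ) g
  rw [h1]
  simp only [Finset.sum_apply, Pi.smul_apply, smul_eq_mul, Finset.mul_sum]
  refine Finset.sum_congr rfl fun τ _ => ?_
  ring

section Nil

variable {β : Set (IrrCharacter H)} {P : Subgroup H} {e : Set (IrrCharacter (Subgroup.centralizer (P : Set H)))}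

/-- The star family of a character of height zero. -/
theorem exists_star_family (hM : IsPModular p M) (hnil : IsNilpotentBlock p M β)
    (hmax : IsMaximalBrauerPair p M β P e) {θ : IrrCharacter H} (hθ : θ ∈ β) (h0 : blockHeight p β (θ : H → ℂ) = 0)
    (hs : (charDegree (θ : H → ℂ)).factorization p =
      sInf ((fun ψ : IrrCharacter H => (charDegree (ψ : H → ℂ)).factorization p) '' β)) :
    ∃ g : IrrCharacter P → IrrCharacter H, (∀ ν, ((g ν : IrrCharacter H) : H → ℂ) = starFun p M e (ν : P → ℂ) (θ : H → ℂ)) ∧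
      Function.Injective g ∧ ∀ τ : IrrCharacter H, τ ∈ β ↔ τ ∈ Set.range g := by
  classical
  haveI := isPrime_of_pModular hM
  have hint : StarInt p M β P e := fun lam hgen hst χ hχ => Cfsg.Agent.Lib.Star.star_isGenChar hM hmax hgen hst hχ
  have hirr := star_isIrr_nil hM hmax hnil hint hθ h0
  refine ⟨fun ν => ⟨_, hirr ν⟩, fun ν => rfl, ?_, fun τ => ⟨fun hτ => ?_, ?_⟩⟩
  · intro ν ν' h
    by_contra hne
    have h1 := classInner_star_eq hM hmax hnil hint hθ h0 (class_irr ν) (class_irr ν')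
    have h2 : starFun p M e (ν : P → ℂ) (θ : H → ℂ) = starFun p M e (ν' : P → ℂ) (θ : H → ℂ) :=
      congrArg (fun a : IrrCharacter H => (a : H → ℂ)) h
    rw [← h2, classInner_self_of_isIrr (hirr ν)] at h1
    have hne' : (ν : P → ℂ) ≠ ν' := fun h3 => hne (Subtype.ext h3)
    rw [classInner_eq_zero_of_isIrr_of_ne ν.2 ν'.2 hne'] at h1
    exact one_ne_zero h1
  · obtain ⟨ν, hν⟩ := exists_star_eq' hM hnil hmax hint hθ h0 hs hτ
    exact ⟨ν, Subtype.ext hν⟩
  · rintro ⟨ν, rfl⟩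
    exact star_mem hM hmax (isStableLam_of_nilpotent hM hmax hnil (class_irr ν)) (irr_one_ne_zero ν.2) hθ (hirr ν)

/-- The section of a member of the star family. -/
theorem Fs_star (hM : IsPModular p M) (hnil : IsNilpotentBlock p M β) (hmax : IsMaximalBrauerPair p M β P e)
    (θ : IrrCharacter H) (ν : IrrCharacter P) (w : P) {y : H} (hy : y ∈ cZ (w : H)) (hyp : ¬ p ∣ orderOf y) :
    Fs (starFun p M e (ν : P → ℂ) (θ : H → ℂ)) (w : H) (bb p M e (w : H)) y =
      (ν : P → ℂ) w * Fs (θ : H → ℂ) (w : H) (bb p M e (w : H)) y := by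
  have hst := isStableLam_of_nilpotent hM hmax hnil (class_irr ν)
  obtain ⟨h1, h2⟩ := bb_spec hM hmax w.2
  have hr := Cfsg.Agent.Lib.Blocks.Third.orderOf_of_mem_isPGroup hmax.1.1.1 w.2
  rw [Fs_starFun hM hst (class_irr θ) hr _ h1 hy hyp, Wt_eq hst h2]
  congr 2
  simp

/-- The section of a character outside the block. -/
theorem Fs_notMem (hM : IsPModular p M) (hmax : IsMaximalBrauerPair p M β P e) {τ : IrrCharacter H} (hτ : τ ∉ β)
    (w : P) {y : H} (hy : y ∈ cZ (w : H)) (hyp : ¬ p ∣ orderOf y) :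
    Fs (τ : H → ℂ) (w : H) (bb p M e (w : H)) y = 0 := by
  classical
  haveI := isPrime_of_pModular hM
  obtain ⟨h1, h2⟩ := bb_spec hM hmax w.2
  have hr := Cfsg.Agent.Lib.Blocks.Third.orderOf_of_mem_isPGroup hmax.1.1.1 w.2
  have hind := induced_of_under hM hmax h2
  rw [show Fs (τ : H → ℂ) (w : H) (bb p M e (w : H)) y = _ from Fs_eq_blockPart (class_irr τ) (w : H) _ ⟨y, hy⟩]
  refine second_main_gen hM hr (B := blockOf M (τ : H → ℂ)) ⟨τ, rfl⟩ (mem_blockOf_self τ) (cZ_eq _) h1 ?_ ⟨y, hy⟩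
    (by rwa [Subgroup.orderOf_mk])
  intro hb
  apply hτ
  have h3 := Cfsg.Agent.Lib.Blocks.Induced.IsInducedBlock.unique _ hind hb
  rw [h3]
  exact mem_blockOf_self τ

/-- The function on the defect group. -/
noncomputable def piF (g : IrrCharacter P → IrrCharacter H) (φ : H → ℂ) (w : P) : ℂ :=
  ∑ ν : IrrCharacter P, classInner φ ((g ν : IrrCharacter H) : H → ℂ) * (ν : P → ℂ) w

variable {θ : IrrCharacter H} {g : IrrCharacter P → IrrCharacter H}

/-- **The section formula.** -/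
theorem Fs_class [Fintype (IrrCharacter H)] (hM : IsPModular p M) (hnil : IsNilpotentBlock p M β)
    (hmax : IsMaximalBrauerPair p M β P e)
    (hg : ∀ ν, ((g ν : IrrCharacter H) : H → ℂ) = starFun p M e (ν : P → ℂ) (θ : H → ℂ))
    (hinj : Function.Injective g) (hr : ∀ τ : IrrCharacter H, τ ∈ β ↔ τ ∈ Set.range g)
    {φ : H → ℂ} (hφ : IsClassFunction H φ) (w : P) {y : H} (hy : y ∈ cZ (w : H)) (hyp : ¬ p ∣ orderOf y) :
    Fs φ (w : H) (bb p M e (w : H)) y = piF g φ w * Fs (θ : H → ℂ) (w : H) (bb p M e (w : H)) y := by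
  classical
  rw [Fs_expand hφ, piF, Finset.sum_mul]
  symm
  refine Fintype.sum_of_injective g hinj _ _ ?_ ?_
  · intro τ hτ
    rw [Fs_notMem hM hmax (fun h => hτ ((hr τ).mp h)) w hy hyp, mul_zero]
  · intro ν
    rw [hg ν, Fs_star hM hnil hmax θ ν w hy hyp, mul_assoc]

/-- **The sum of products of sections.** -/
theorem sum_Fs_family [Fintype (IrrCharacter H)] (hM : IsPModular p M) (hnil : IsNilpotentBlock p M β)
    (hmax : IsMaximalBrauerPair p M β P e)
    (hg : ∀ ν, ((g ν : IrrCharacter H) : H → ℂ) = starFun p M e (ν : P → ℂ) (θ : H → ℂ))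
    (hinj : Function.Injective g) (hr : ∀ τ : IrrCharacter H, τ ∈ β ↔ τ ∈ Set.range g)
    (w w' : P) {y y' : H} (hy : y ∈ cZ (w : H)) (hyp : ¬ p ∣ orderOf y) (hy' : y' ∈ cZ (w' : H)) (hyp' : ¬ p ∣ orderOf y') :
    ∑ τ : IrrCharacter H, Fs (τ : H → ℂ) (w : H) (bb p M e (w : H)) y * conj (Fs (τ : H → ℂ) (w' : H) (bb p M e (w' : H)) y') =
      (∑ ν : IrrCharacter P, (ν : P → ℂ) w * conj ((ν : P → ℂ) w')) *
        (Fs (θ : H → ℂ) (w : H) (bb p M e (w : H)) y * conj (Fs (θ : H → ℂ) (w' : H) (bb p M e (w' : H)) y')) := by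
  classical
  rw [Finset.sum_mul]
  symm
  refine Fintype.sum_of_injective g hinj _ _ ?_ ?_
  · intro τ hτ
    rw [Fs_notMem hM hmax (fun h => hτ ((hr τ).mp h)) w hy hyp, zero_mul]
  · intro ν
    rw [hg ν, Fs_star hM hnil hmax θ ν w hy hyp, Fs_star hM hnil hmax θ ν w' hy' hyp', map_mul]
    ring

/-- The non-vanishing of a section at the identity. -/
theorem blockPart_one_ne [Fintype (IrrCharacter H)] (hM : IsPModular p M) {B : Set (IrrCharacter H)} (hB : IsPBlock M B)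
    {x : H} (hx : ∃ k : ℕ, orderOf x = p ^ k) {C : Subgroup H} (hC : C = Subgroup.centralizer ({x} : Set H))
    [Fintype C] [Fintype (IrrCharacter C)] {b : Set (IrrCharacter C)} (hb : IsInducedBlock M C b B)
    {χ : IrrCharacter H} (hχ : χ ∈ B) (h0 : blockHeight p B (χ : H → ℂ) = 0) :
    blockPart b (fun c : C => (χ : H → ℂ) (x * (c : H))) 1 ≠ 0 := by
  classical
  haveI := isPrime_of_pModular hM
  subst hC
  have h1 := section_value_notMem hM hx hB hb hχ h0
  intro h2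
  apply h1
  have hr : IsPRegular p (1 : Subgroup.centralizer ({x} : Set H)) := by
    rw [IsPRegular, orderOf_one, Nat.dvd_one]
    exact (Fact.out : p.Prime).ne_one
  rw [PP, Cfsg.Agent.Lib.BlockH.Regular.pRegularPart_apply, if_pos hr]
  have h3 : blockPart b (vt x χ) 1 = 0 := h2
  rw [h3, zero_div]
  exact memLocalIdeal_zero

/-- **The section of a character of height zero does not vanish at the identity.** -/
theorem Fs_one_ne [Fintype (IrrCharacter H)] (hM : IsPModular p M) (hmax : IsMaximalBrauerPair p M β P e)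
    (hθ : θ ∈ β) (h0 : blockHeight p β (θ : H → ℂ) = 0) (w : P) :
    Fs (θ : H → ℂ) (w : H) (bb p M e (w : H)) 1 ≠ 0 := by
  haveI := isPrime_of_pModular hM
  obtain ⟨h1, h2⟩ := bb_spec hM hmax w.2
  have hr := Cfsg.Agent.Lib.Blocks.Third.orderOf_of_mem_isPGroup hmax.1.1.1 w.2
  have hind := induced_of_under hM hmax h2
  have h3 := blockPart_one_ne hM hmax.1.2.1 hr (cZ_eq _) hind hθ h0
  have h4 := Fs_eq_blockPart (class_irr θ) (w : H) (bb p M e (w : H)) 1
  rw [Subgroup.coe_one] at h4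
  rw [h4]
  exact h3

end Nil

end Cfsg.Agent.Lib.Dih.Sect
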