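import Mathlib
import Cfsg.Agent.Lib.Star.Wat3
import Cfsg.Agent.Lib.Dih.Sect

/-!
# Passing to the centralizer of a central element of the defect group
-/

set_option linter.unusedSectionVars false
set_option linter.style.haveILetI false
set_option autoImplicit false

namespace Cfsg.Agent.Lib.Dih.Down

open Cfsg MonoidAlgebra
open Cfsg.Agent.Lib.Blocks.Local Cfsg.Agent.Lib.Blocks.Central Cfsg.Agent.Lib.Blocks.Brauer
open Cfsg.Agent.Lib.Blocks.Defect Cfsg.Agent.Lib.Blocks.Defect2 Cfsg.Agent.Lib.BlockT.SylowIn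
open Cfsg.Agent.Lib.BlockH.Pairs Cfsg.Agent.Lib.BlockH.BrauerMap Cfsg.Agent.Lib.BlockH.Transport
open Cfsg.Agent.Lib.BlockH.Subpair Cfsg.Agent.Lib.BlockH.SubpairLE Cfsg.Agent.Lib.BlockH.ConjPair
open Cfsg.Agent.Lib.BlockH.MaxPair Cfsg.Agent.Lib.BlockH.Sylow Cfsg.Agent.Lib.BlockH.Defects
open Cfsg.Agent.Lib.BlockH.FusionB
open Cfsg.Agent.Lib.BlockH.Descent
open Cfsg.Agent.Lib.BlockH.Saturation Cfsg.Agent.Lib.BlockH.Nilpotent Cfsg.Agent.Lib.BlockH.InducedPairs
open Cfsg.Agent.Lib.BP.StarDefs Cfsg.Agent.Lib.BP.Nil1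
open Cfsg.Agent.Lib.Contrib.Section
open Cfsg.Agent.Lib.Char.Complete
open Cfsg.FusionSystem
open scoped ComplexConjugate

universe u

variable {G : Type u} [Group G] [Fintype G] {M : Ideal AlgInt} {p : ℕ}
variable {B : Set (IrrCharacter G)} {P Q : Subgroup G}
  {e : Set (IrrCharacter (Subgroup.centralizer (P : Set G)))}
  {f : Set (IrrCharacter (Subgroup.centralizer (Q : Set G)))}

/-- The maximal pair inside the centralizer of a subgroup centralized by `P`. -/
theorem isMaximal_desc' [Fact p.Prime] (hM : IsPModular p M)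
    (hmax : IsMaximalBrauerPair p M B P e)
    (hQP : Q ≤ P) (hnor : IsNormalSubpair p M Q f P e)
    (hPC : P ≤ Subgroup.centralizer (Q : Set G))
    (hX : (P.subgroupOf (Subgroup.centralizer (Q : Set G))).map (Subgroup.centralizer (Q : Set G)).subtype = P)
    (hC : Subgroup.centralizer (P : Set G) ≤ Subgroup.centralizer (Q : Set G)) :
    IsMaximalBrauerPair p M f (P.subgroupOf (Subgroup.centralizer (Q : Set G)))
      (blockMap (descEquiv hX hC).symm e) := by
  classical
  haveI := isPrime_of_pModular hM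
  letI : Fintype (Subgroup.centralizer (Q : Set G)) := Fintype.ofFinite _
  have hPp := hmax.1.1.1
  have hQp : IsPGroup p Q := hPp.to_le hQP
  have hP' : IsPGroup p (P.subgroupOf (Subgroup.centralizer (Q : Set G))) := (isPGroup_iff_of_map hX).mp hPp
  have hind := (isInducedBlockIn_iff_isNormalSubpair hM hPp hQP hPC).mpr hnor
  have hI := (isInducedBlockIn_iff hX hC).mp hind
  have hpair := isBrauerPairOf_of_induced hM hP' hI
  refine isMaximal_of_isDefectGroup hM hpair ?_
  obtain ⟨Fs, hFs⟩ := exists_blockFusion hM hmax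
  have hfc : Fs.IsFullyCentralized Q := by
    refine ⟨hQP, fun R _ => ?_⟩
    have h1 : centralizerIn P Q = P := inf_eq_left.mpr hPC
    rw [h1]
    exact Subgroup.card_le_of_le inf_le_left
  have hd := (isFullyCentralized_iff hM hmax hFs hQP hnor.1.2 (Relation.ReflTransGen.single hnor)).mp hfc
  rwa [inf_eq_left.mpr hPC] at hd

section Central

variable [Fact p.Prime]

attribute [local instance] fK fIrr fBl

theorem map_P' {w : G} (hP : P ≤ cZ w) : (P.subgroupOf (cZ w)).map (cZ w).subtype = P :=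
  Subgroup.map_subgroupOf_eq_of_le hP

theorem C_le_cZ' {w : G} (hw : w ∈ P) : Subgroup.centralizer (P : Set G) ≤ cZ w :=
  Subgroup.centralizer_le ((Subgroup.zpowers_le).mpr hw)

/-- The block of the centralizer of `P` inside `C_G(w)`. -/
noncomputable def eDown' (e : Set (IrrCharacter (Subgroup.centralizer (P : Set G))))
    {w : G} (hP : P ≤ cZ w) (hw : w ∈ P) :
    Set (IrrCharacter (Subgroup.centralizer ((P.subgroupOf (cZ w) : Subgroup (cZ w)) : Set (cZ w)))) :=
  blockMap (descEquiv (map_P' hP) (C_le_cZ' hw)).symm e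

theorem isNormalSubpair_of_under' (hM : IsPModular p M) (hmax : IsMaximalBrauerPair p M B P e)
    {w : G} (hP : P ≤ cZ w) (hw : w ∈ P) {f : Set (IrrCharacter (cZ w))}
    (hu : IsUnder p M e w f 1) : IsNormalSubpair p M (Subgroup.zpowers w) f P e := by
  haveI := isPrime_of_pModular hM
  have hle := Cfsg.Agent.Lib.BP.Star3.isUnder_one_iff.mp hu
  have hQP : Subgroup.zpowers w ≤ P := (Subgroup.zpowers_le).mpr hw
  have hf : IsPBlock M f := isPBlock_of_subpairLE hmax.1.1.2 hle
  exact isNormalSubpair_of_subpairLE hM ⟨hmax.1.1.1.to_le hQP, hf⟩ hle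
    (hP.trans (centralizer_le_normalizer'' _))

/-- The maximal pair in `C_G(w)`. -/
theorem isMaximal_down' (hM : IsPModular p M) (hmax : IsMaximalBrauerPair p M B P e)
    {w : G} (hP : P ≤ cZ w) (hw : w ∈ P) {f : Set (IrrCharacter (cZ w))}
    (hu : IsUnder p M e w f 1) : IsMaximalBrauerPair p M f (P.subgroupOf (cZ w)) (eDown' e hP hw) :=
  isMaximal_desc' hM hmax ((Subgroup.zpowers_le).mpr hw) (isNormalSubpair_of_under' hM hmax hP hw hu)
    hP (map_P' hP) (C_le_cZ' hw)

/-- Pairs below `(P, e)` at a central element are major. -/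
theorem blockDefect_eq' (hM : IsPModular p M) (hmax : IsMaximalBrauerPair p M B P e)
    {w : G} (hP : P ≤ cZ w) (hw : w ∈ P) {f : Set (IrrCharacter (cZ w))}
    (hu : IsUnder p M e w f 1) : blockDefect p f = blockDefect p B := by
  have hp : p.Prime := Fact.out
  have hm := isMaximal_down' hM hmax hP hw hu
  have h1 := Cfsg.Agent.Lib.Blocks.Inducing.card_eq_pow_blockDefect hM hm.1.2.1 (isDefectGroup_of_isMaximal hM hm)
  have h2 := Cfsg.Agent.Lib.Blocks.Inducing.card_eq_pow_blockDefect hM hmax.1.2.1 (isDefectGroup_of_isMaximal hM hmax)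
  have h3 : Nat.card (P.subgroupOf (cZ w)) = Nat.card P :=
    Nat.card_congr (Subgroup.subgroupOfEquivOfLe hP).toEquiv
  rw [h3, h2] at h1
  exact (Nat.pow_right_injective hp.two_le h1).symm

end Central

section Nil

open Cfsg.Agent.Lib.Dih.Grp

/-- **A block with dihedral defect group and central involution is nilpotent.** -/
theorem isNilpotent_of_central {q h m : ℕ} [NeZero q] (hq : q = 4 * h) (hh : 1 ≤ h) (hq2 : q = 2 ^ m)
    [Fact (Nat.Prime 2)] (hM : IsPModular 2 M) {β : Set (IrrCharacter G)} {P : Subgroup G}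
    {e : Set (IrrCharacter (Subgroup.centralizer (P : Set G)))} (hmax : IsMaximalBrauerPair 2 M β P e)
    (φ : DihedralGroup q ≃* P) (hc : ∀ g : G, Commute g (zz φ h)) : IsNilpotentBlock 2 M β := by
  classical
  haveI := isPrime_of_pModular hM
  refine ⟨hmax.1.2.1, fun Q f hQf x hxN _ hxR => ?_⟩
  obtain ⟨y, hy⟩ := exists_conj_subpairLE hM hmax hQf
  have hQ₁P : Q.map (MulAut.conj y).toMonoidHom ≤ P := le_of_subpairLE hy
  have h1 : y * x * y⁻¹ ∈ Subgroup.normalizer ((Q.map (MulAut.conj y).toMonoidHom : Subgroup G) : Set G) :=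
    conj_mem_normalizer rfl hxN
  have h2 : ¬ 2 ∣ orderOf (y * x * y⁻¹) := by
    rw [orderOf_conj']
    exact hxR
  have h3 := mem_centralizer_of_odd φ hq hh hq2 hQ₁P h1 h2 (hc _)
  rw [Subgroup.mem_centralizer_iff] at h3 ⊢
  intro t ht
  have h4 := h3 (y * t * y⁻¹) ⟨t, ht, rfl⟩
  have h5 : y * (t * x) * y⁻¹ = y * (x * t) * y⁻¹ := by
    calc y * (t * x) * y⁻¹ = y * t * y⁻¹ * (y * x * y⁻¹) := by group
      _ = y * x * y⁻¹ * (y * t * y⁻¹) := h4
      _ = _ := by group
  exact mul_left_cancel (mul_right_cancel h5)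

end Nil

section Compare

variable [Fintype (IrrCharacter G)] (K : Subgroup G) [Fintype K] [Fintype (IrrCharacter K)]

/-- **Column orthogonality in a subgroup controlling conjugation.** -/
theorem sum_irr_restrict (g g' : K) (h1 : ∀ t : G, t * (g : G) * t⁻¹ = (g' : G) → t ∈ K)
    (h2 : ∀ t : G, t * (g' : G) * t⁻¹ = (g' : G) → t ∈ K) :
    ∑ χ : IrrCharacter G, (χ : G → ℂ) g * conj ((χ : G → ℂ) g') =
      ∑ τ : IrrCharacter K, (τ : K → ℂ) g * conj ((τ : K → ℂ) g') := by
  classical
  rw [sum_irr_mul_conj, sum_irr_mul_conj]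
  have hiff : IsConj (g : G) (g' : G) ↔ IsConj g g' := by
    constructor
    · intro h
      obtain ⟨t, ht⟩ := isConj_iff.mp h
      exact isConj_iff.mpr ⟨⟨t, h1 t ht⟩, Subtype.ext ht⟩
    · intro h
      obtain ⟨t, ht⟩ := isConj_iff.mp h
      refine isConj_iff.mpr ⟨t, ?_⟩
      have := congrArg Subtype.val ht
      simpa using this
  have hcard : Nat.card (Subgroup.centralizer ({(g' : G)} : Set G)) =
      Nat.card (Subgroup.centralizer ({g'} : Set K)) := by
    refine Nat.card_congr ⟨fun t => ⟨⟨t, h2 t ?_⟩, ?_⟩, fun t => ⟨((t : K) : G), ?_⟩, fun t => rfl, fun t => rfl⟩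
    · have := Subgroup.mem_centralizer_singleton_iff.mp t.2
      rw [this]
      group
    · rw [Subgroup.mem_centralizer_singleton_iff]
      apply Subtype.ext
      exact Subgroup.mem_centralizer_singleton_iff.mp t.2
    · rw [Subgroup.mem_centralizer_singleton_iff]
      exact congrArg Subtype.val (Subgroup.mem_centralizer_singleton_iff.mp t.2)
  by_cases h : IsConj g g'
  · rw [if_pos h, if_pos (hiff.mpr h), hcard]
  · rw [if_neg h, if_neg (fun h3 => h (hiff.mp h3))]

end Compare

end Cfsg.Agent.Lib.Dih.Down
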