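import Mathlib

/-!
# The lattice computation behind blocks with dihedral defect groups

Integer vectors `V i` with prescribed distances, and the vector `a` given by the major subsection.
-/

set_option linter.unusedSectionVars false
set_option linter.style.haveILetI false
set_option autoImplicit false

namespace Cfsg.Agent.Lib.Dih.Num

section Ip

variable {ι : Type*} [Fintype ι]

/-- The inner product of integer vectors. -/
def ip (f g : ι → ℤ) : ℤ := ∑ x, f x * g x

theorem ip_comm (f g : ι → ℤ) : ip f g = ip g f := by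
  simp only [ip, mul_comm]

theorem ip_sub_left (f g k : ι → ℤ) : ip (f - g) k = ip f k - ip g k := by
  simp only [ip, Pi.sub_apply, sub_mul, Finset.sum_sub_distrib]

theorem ip_sub_right (f g k : ι → ℤ) : ip k (f - g) = ip k f - ip k g := by
  simp only [ip, Pi.sub_apply, mul_sub, Finset.sum_sub_distrib]

theorem ip_add_left (f g k : ι → ℤ) : ip (f + g) k = ip f k + ip g k := by
  simp only [ip, Pi.add_apply, add_mul, Finset.sum_add_distrib]

theorem ip_add_right (f g k : ι → ℤ) : ip k (f + g) = ip k f + ip k g := by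
  simp only [ip, Pi.add_apply, mul_add, Finset.sum_add_distrib]

theorem ip_smul_left (t : ℤ) (f g : ι → ℤ) : ip (t • f) g = t * ip f g := by
  simp only [ip, Pi.smul_apply, smul_eq_mul, Finset.mul_sum, mul_assoc]

theorem ip_smul_right (t : ℤ) (f g : ι → ℤ) : ip g (t • f) = t * ip g f := by
  rw [ip_comm, ip_smul_left, ip_comm]

theorem nsq_sub (f g : ι → ℤ) : ip (f - g) (f - g) = ip f f - 2 * ip f g + ip g g := by
  rw [ip_sub_left, ip_sub_right, ip_sub_right, ip_comm g f]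
  ring

theorem ip_self_nonneg (f : ι → ℤ) : 0 ≤ ip f f :=
  Finset.sum_nonneg fun x _ => mul_self_nonneg _

theorem eq_zero_of_ip_self {f : ι → ℤ} (h : ip f f = 0) : f = 0 := by
  funext x
  have h1 := (Finset.sum_eq_zero_iff_of_nonneg (fun y _ => mul_self_nonneg (f y))).mp h x (Finset.mem_univ x)
  simpa using h1

theorem sq_le_ip_self (f : ι → ℤ) (x : ι) : f x * f x ≤ ip f f :=
  Finset.single_le_sum (f := fun y => f y * f y) (fun y _ => mul_self_nonneg (f y)) (Finset.mem_univ x)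

theorem abs_le_one_of_ip_two {f : ι → ℤ} (h : ip f f = 2) (x : ι) : -1 ≤ f x ∧ f x ≤ 1 := by
  have h1 := sq_le_ip_self f x
  rw [h] at h1
  constructor <;> nlinarith

open Classical in
theorem ip_single_right (f : ι → ℤ) (x : ι) (t : ℤ) : ip f (Pi.single x t) = f x * t := by
  rw [ip, Finset.sum_eq_single x]
  · simp
  · intro y _ hy
    simp [hy]
  · simp

open Classical in
theorem ip_single_left (f : ι → ℤ) (x : ι) (t : ℤ) : ip (Pi.single x t) f = f x * t := by
  rw [ip_comm, ip_single_right]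

open Classical in
theorem ip_single_single (x : ι) (t : ℤ) : ip (Pi.single x t : ι → ℤ) (Pi.single x t) = t * t := by
  rw [ip_single_right]
  simp

open Classical in
/-- Vectors of norm one. -/
theorem exists_single_of_ip_one {f : ι → ℤ} (h : ip f f = 1) :
    ∃ (x : ι) (ε : ℤ), (ε = 1 ∨ ε = -1) ∧ f = Pi.single x ε := by
  have hex : ∃ x, f x ≠ 0 := by
    by_contra hcon
    push Not at hcon
    have : ip f f = 0 := Finset.sum_eq_zero fun x _ => by rw [hcon x, zero_mul]
    omega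
  obtain ⟨x, hx⟩ := hex
  have h1 := sq_le_ip_self f x
  rw [h] at h1
  have h2 : f x = 1 ∨ f x = -1 := by
    have h3 : -1 ≤ f x ∧ f x ≤ 1 := by constructor <;> nlinarith
    omega
  refine ⟨x, f x, h2, ?_⟩
  have h3 : ip (f - Pi.single x (f x)) (f - Pi.single x (f x)) = 0 := by
    rw [ip_sub_left, ip_sub_right, ip_sub_right, ip_single_right, ip_single_left, ip_single_single, h]
    rcases h2 with h2 | h2 <;> rw [h2] <;> norm_num
  have h4 := eq_zero_of_ip_self h3
  exact sub_eq_zero.mp h4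

/-- Two vectors of norm two and inner product one share a coordinate. -/
theorem exists_common {d₁ d₂ : ι → ℤ} (h₁ : ip d₁ d₁ = 2) (h₂ : ip d₂ d₂ = 2) (h : ip d₁ d₂ = 1) :
    ∃ (x : ι) (ε : ℤ), (ε = 1 ∨ ε = -1) ∧ d₁ x = ε ∧ d₂ x = ε := by
  have hex : ∃ x, 0 < d₁ x * d₂ x := by
    by_contra hcon
    push Not at hcon
    have : ip d₁ d₂ ≤ 0 := Finset.sum_nonpos fun x _ => hcon x
    omega
  obtain ⟨x, hx⟩ := hex
  obtain ⟨h3, h4⟩ := abs_le_one_of_ip_two h₁ x
  obtain ⟨h5, h6⟩ := abs_le_one_of_ip_two h₂ x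
  refine ⟨x, d₁ x, ?_, rfl, ?_⟩
  · have : d₁ x ≠ 0 := fun h0 => by simp [h0] at hx
    omega
  · have h7 : d₂ x ≠ 0 := fun h0 => by simp [h0] at hx
    have h8 : d₁ x ≠ 0 := fun h0 => by simp [h0] at hx
    have e1 : d₁ x = 1 ∨ d₁ x = -1 := by omega
    have e2 : d₂ x = 1 ∨ d₂ x = -1 := by omega
    rcases e1 with e1 | e1 <;> rcases e2 with e2 | e2 <;> rw [e1, e2] at hx ⊢ <;> norm_num at hx

open Classical in
/-- The centre of a simplex with edges of squared length two. -/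
theorem exists_center {κ : Type*} {s : Finset κ} (hs : 5 ≤ s.card) (V : κ → ι → ℤ)
    (hV : ∀ i ∈ s, ∀ j ∈ s, i ≠ j → ip (V i - V j) (V i - V j) = 2) :
    ∃ w : ι → ℤ, ∀ i ∈ s, ip (V i - w) (V i - w) = 1 := by
  -- three points
  obtain ⟨i₁, hi₁, i₂, hi₂, i₃, hi₃, h12, h13, h23⟩ : ∃ i₁ ∈ s, ∃ i₂ ∈ s, ∃ i₃ ∈ s, i₁ ≠ i₂ ∧ i₁ ≠ i₃ ∧ i₂ ≠ i₃ := by
    have h3 : 2 < s.card := by omega
    obtain ⟨a, ha, b, hb, c, hc, h1, h2, h3⟩ := Finset.two_lt_card.mp h3
    exact ⟨a, ha, b, hb, c, hc, h1, h2, h3⟩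
  set d₁ := V i₂ - V i₁ with hd₁
  set d₂ := V i₃ - V i₁ with hd₂
  have hd₁₁ : ip d₁ d₁ = 2 := hV i₂ hi₂ i₁ hi₁ h12.symm
  have hd₂₂ : ip d₂ d₂ = 2 := hV i₃ hi₃ i₁ hi₁ h13.symm
  have hd₁₂ : ip d₁ d₂ = 1 := by
    have h1 : V i₂ - V i₃ = d₁ - d₂ := by
      rw [hd₁, hd₂]
      abel
    have h2 := hV i₂ hi₂ i₃ hi₃ h23
    rw [h1, nsq_sub, hd₁₁, hd₂₂] at h2
    omega
  obtain ⟨x, ε, hε, h1x, h2x⟩ := exists_common hd₁₁ hd₂₂ hd₁₂
  have hεε : ε * ε = 1 := by
    rcases hε with h | h <;> rw [h] <;> norm_num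
  set e : ι → ℤ := Pi.single x ε with he
  set w := V i₁ + e with hw
  set g₁ := V i₁ - w with hg₁
  set g₂ := V i₂ - w with hg₂
  set g₃ := V i₃ - w with hg₃
  have hee : ip e e = 1 := by rw [he, ip_single_single, hεε]
  have hg₁e : g₁ = - e := by
    rw [hg₁, hw]
    abel
  have hg₂e : g₂ = d₁ - e := by
    rw [hg₂, hw, hd₁]
    abel
  have hg₃e : g₃ = d₂ - e := by
    rw [hg₃, hw, hd₂]
    abel
  have hd₁e : ip d₁ e = 1 := by
    rw [he, ip_single_right, h1x, hεε]
  have hd₂e : ip d₂ e = 1 := by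
    rw [he, ip_single_right, h2x, hεε]
  have h11 : ip g₁ g₁ = 1 := by
    have : g₁ = 0 - e := by rw [hg₁e]; abel
    rw [this, ip_sub_left, ip_sub_right, ip_sub_right, hee]
    simp [ip]
  have h22 : ip g₂ g₂ = 1 := by
    rw [hg₂e, nsq_sub, hd₁₁, hd₁e, hee]
    norm_num
  have h33 : ip g₃ g₃ = 1 := by
    rw [hg₃e, nsq_sub, hd₂₂, hd₂e, hee]
    norm_num
  have h12' : ip g₁ g₂ = 0 := by
    have h3 : g₁ - g₂ = V i₁ - V i₂ := by rw [hg₁, hg₂]; abel
    have h4 := hV i₁ hi₁ i₂ hi₂ h12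
    rw [← h3, nsq_sub, h11, h22] at h4
    omega
  have h13' : ip g₁ g₃ = 0 := by
    have h3 : g₁ - g₃ = V i₁ - V i₃ := by rw [hg₁, hg₃]; abel
    have h4 := hV i₁ hi₁ i₃ hi₃ h13
    rw [← h3, nsq_sub, h11, h33] at h4
    omega
  have h23' : ip g₂ g₃ = 0 := by
    have h3 : g₂ - g₃ = V i₂ - V i₃ := by rw [hg₂, hg₃]; abel
    have h4 := hV i₂ hi₂ i₃ hi₃ h23
    rw [← h3, nsq_sub, h22, h33] at h4
    omega
  -- a general point
  have key : ∀ i ∈ s, i ≠ i₁ → i ≠ i₂ → i ≠ i₃ →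
      ∃ t : ℤ, (t = 0 ∨ t = 1) ∧ ip g₁ (V i - w) = t ∧ ip g₂ (V i - w) = t ∧ ip g₃ (V i - w) = t ∧
        ip (V i - w) (V i - w) = 1 + 2 * t ∧ (t = 1 → V i - w = g₁ + g₂ + g₃) := by
    intro i hi hi1 hi2 hi3
    set f := V i - w with hf
    have e1 : ip (f - g₁) (f - g₁) = 2 := by
      have : f - g₁ = V i - V i₁ := by rw [hf, hg₁]; abel
      rw [this]
      exact hV i hi i₁ hi₁ hi1
    have e2 : ip (f - g₂) (f - g₂) = 2 := by
      have : f - g₂ = V i - V i₂ := by rw [hf, hg₂]; abel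
      rw [this]
      exact hV i hi i₂ hi₂ hi2
    have e3 : ip (f - g₃) (f - g₃) = 2 := by
      have : f - g₃ = V i - V i₃ := by rw [hf, hg₃]; abel
      rw [this]
      exact hV i hi i₃ hi₃ hi3
    rw [nsq_sub, h11] at e1
    rw [nsq_sub, h22] at e2
    rw [nsq_sub, h33] at e3
    set t := ip f g₁ with ht
    have e4 : ip f g₂ = t := by omega
    have e5 : ip f g₃ = t := by omega
    have e6 : ip f f = 1 + 2 * t := by omega
    set E := f - t • (g₁ + g₂ + g₃) with hE
    have e7 : ip E E = 1 + 2 * t - 3 * (t * t) := by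
      simp only [hE, ip_sub_left, ip_sub_right, ip_smul_left, ip_smul_right, ip_add_left, ip_add_right]
      rw [e6, ← ht, e4, e5, ip_comm g₁ f, ip_comm g₂ f, ip_comm g₃ f, e4, e5, ← ht, h11, h22, h33, h12', h13', h23',
        ip_comm g₂ g₁, ip_comm g₃ g₁, ip_comm g₃ g₂, h12', h13', h23']
      ring
    have e8 := ip_self_nonneg E
    rw [e7] at e8
    have e9 : t = 0 ∨ t = 1 := by
      have h1 : t ≤ 1 := by nlinarith
      have h2 : 0 ≤ t := by nlinarith
      omega
    refine ⟨t, e9, by rw [ip_comm, ← ht], by rw [ip_comm, e4], by rw [ip_comm, e5], e6, ?_⟩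
    intro ht1
    have e10 : ip E E = 0 := by rw [e7, ht1]; norm_num
    have e11 := eq_zero_of_ip_self e10
    rw [hE, ht1, one_smul] at e11
    exact sub_eq_zero.mp e11
  refine ⟨w, fun i hi => ?_⟩
  by_cases hi1 : i = i₁
  · rw [hi1]
    exact h11
  by_cases hi2 : i = i₂
  · rw [hi2]
    exact h22
  by_cases hi3 : i = i₃
  · rw [hi3]
    exact h33
  obtain ⟨t, ht, -, -, -, h4, h5⟩ := key i hi hi1 hi2 hi3
  rcases ht with ht | ht
  · rw [h4, ht]
    norm_num
  · exfalso
    -- a fifth point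
    have h6 : 4 < s.card := by omega
    obtain ⟨i₅, hi₅, hn⟩ : ∃ j ∈ s, j ∉ ({i₁, i₂, i₃, i} : Finset κ) := by
      by_contra hcon
      push Not at hcon
      have h7 : s ⊆ ({i₁, i₂, i₃, i} : Finset κ) := hcon
      have h8 := Finset.card_le_card h7
      have h9 : ({i₁, i₂, i₃, i} : Finset κ).card ≤ 4 := Finset.card_le_four
      omega
    simp only [Finset.mem_insert, Finset.mem_singleton, not_or] at hn
    obtain ⟨hn1, hn2, hn3, hn4⟩ := hn
    obtain ⟨t', -, h1', h2', h3', h4', -⟩ := key i₅ hi₅ hn1 hn2 hn3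
    have h7 := h5 ht
    have h8 := hV i hi i₅ hi₅ (Ne.symm hn4)
    have h9 : V i - V i₅ = (V i - w) - (V i₅ - w) := by abel
    rw [h9, nsq_sub, h4, h4', ht, h7, ip_add_left, ip_add_left, h1', h2', h3'] at h8
    omega

end Ip

section Bound

variable {ι : Type*} [Fintype ι]

open Classical in
/-- The number of odd entries of a vector of norm four. -/
theorem card_odd_eq_four {δ : ι → ℤ} (hδ : ip δ δ = 4) (hex : ∃ x, Odd (δ x)) :
    (Finset.univ.filter fun x => Odd (δ x)).card = 4 := by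
  set O := Finset.univ.filter fun x => Odd (δ x) with hO
  have h1 : ∀ x, ∃ m : ℤ, δ x * δ x = (if Odd (δ x) then 1 else 0) + 4 * m := by
    intro x
    by_cases hx : Odd (δ x)
    · obtain ⟨t, ht⟩ := hx
      refine ⟨t * t + t, ?_⟩
      rw [if_pos ⟨t, ht⟩, ht]
      ring
    · obtain ⟨t, ht⟩ := Int.not_odd_iff_even.mp hx
      refine ⟨t * t, ?_⟩
      rw [if_neg hx, ht]
      ring
  choose m hm using h1
  have h2 : ip δ δ = (O.card : ℤ) + 4 * ∑ x, m x := by
    rw [ip, Finset.sum_congr rfl fun x _ => hm x, Finset.sum_add_distrib, ← Finset.mul_sum, Finset.sum_boole]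
  have h3 : (O.card : ℤ) ≤ ip δ δ := by
    rw [ip, Finset.card_eq_sum_ones, Nat.cast_sum, hO, Finset.sum_filter]
    refine Finset.sum_le_sum fun x _ => ?_
    by_cases hx : Odd (δ x)
    · rw [if_pos hx]
      have h4 : δ x ≠ 0 := fun h0 => by simp [h0] at hx
      push_cast
      have : 1 ≤ δ x * δ x := by
        have := mul_self_nonneg (δ x)
        have h5 : δ x * δ x ≠ 0 := mul_self_ne_zero.mpr h4
        omega
      exact this
    · rw [if_neg hx]
      exact mul_self_nonneg _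
  have h5 : 0 < O.card := by
    obtain ⟨x, hx⟩ := hex
    exact Finset.card_pos.mpr ⟨x, by simp [hO, hx]⟩
  rw [hδ] at h2 h3
  omega

open Classical in
theorem sum_b {a : ι → ℤ} (hO : (Finset.univ.filter fun x => Odd (a x)).card = 4) :
    ∑ x, (if Odd (a x) then (1 : ℤ) else 4) = 4 * Fintype.card ι - 12 := by
  have h1 : ∀ x, (if Odd (a x) then (1 : ℤ) else 4) = 4 - 3 * (if Odd (a x) then 1 else 0) := by
    intro x
    by_cases hx : Odd (a x)
    · rw [if_pos hx, if_pos hx]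
      norm_num
    · rw [if_neg hx, if_neg hx]
      norm_num
  rw [Finset.sum_congr rfl fun x _ => h1 x, Finset.sum_sub_distrib, ← Finset.mul_sum, Finset.sum_boole, hO]
  simp only [Finset.sum_const, Finset.card_univ, nsmul_eq_mul]
  norm_num
  ring

theorem b_le {a : ι → ℤ} (hne : ∀ x, a x ≠ 0) (x : ι) :
    (if Odd (a x) then (1 : ℤ) else 4) ≤ a x * a x := by
  classical
  by_cases hx : Odd (a x)
  · rw [if_pos hx]
    have := mul_self_nonneg (a x)
    have h5 : a x * a x ≠ 0 := mul_self_ne_zero.mpr (hne x)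
    omega
  · rw [if_neg hx]
    obtain ⟨t, ht⟩ := Int.not_odd_iff_even.mp hx
    have h1 : t ≠ 0 := fun h0 => hne x (by rw [ht, h0]; norm_num)
    have h2 : 1 ≤ t * t := by
      have := mul_self_nonneg t
      have h5 : t * t ≠ 0 := mul_self_ne_zero.mpr h1
      omega
    rw [ht]
    nlinarith

open Classical in
/-- The upper bound. -/
theorem card_le {a : ι → ℤ} {h : ℕ} (ha : ip a a = 8 * h) (hne : ∀ x, a x ≠ 0)
    (hO : (Finset.univ.filter fun x => Odd (a x)).card = 4) : Fintype.card ι ≤ 2 * h + 3 := by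
  have h1 := Finset.sum_le_sum (s := Finset.univ) fun x _ => b_le hne x
  rw [sum_b hO] at h1
  have h2 : ∑ x, a x * a x = 8 * h := ha
  rw [h2] at h1
  omega

open Classical in
/-- A large entry makes the number of coordinates small. -/
theorem card_le_of_large {a : ι → ℤ} {h : ℕ} (ha : ip a a = 8 * h) (hne : ∀ x, a x ≠ 0)
    (hO : (Finset.univ.filter fun x => Odd (a x)).card = 4) {x₀ : ι} (hx₀ : ¬ (-2 ≤ a x₀ ∧ a x₀ ≤ 2)) :
    Fintype.card ι ≤ 2 * h + 1 := by
  have h1 : ∑ x, (if Odd (a x) then (1 : ℤ) else 4) + 8 ≤ ∑ x, a x * a x := by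
    have h2 := Finset.sum_le_sum (s := Finset.univ.erase x₀) fun x _ => b_le hne x
    rw [← Finset.add_sum_erase _ _ (Finset.mem_univ x₀), ← Finset.add_sum_erase (a := x₀) _ (fun x => a x * a x) (Finset.mem_univ x₀)]
    have h3 : (if Odd (a x₀) then (1 : ℤ) else 4) + 8 ≤ a x₀ * a x₀ := by
      by_cases hx : Odd (a x₀)
      · rw [if_pos hx]
        have : 3 ≤ a x₀ ∨ a x₀ ≤ -3 := by omega
        rcases this with h | h <;> nlinarith
      · rw [if_neg hx]
        obtain ⟨t, ht⟩ := Int.not_odd_iff_even.mp hx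
        have : 2 ≤ t ∨ t ≤ -2 := by omega
        rw [ht]
        rcases this with h | h <;> nlinarith
    linarith
  rw [sum_b hO] at h1
  have h2 : ∑ x, a x * a x = 8 * h := ha
  rw [h2] at h1
  omega

open Classical in
/-- Small entries make the number of coordinates large. -/
theorem le_card_of_small {a : ι → ℤ} {h : ℕ} (ha : ip a a = 8 * h) (hne : ∀ x, a x ≠ 0)
    (hO : (Finset.univ.filter fun x => Odd (a x)).card = 4) (hs : ∀ x, -2 ≤ a x ∧ a x ≤ 2) :
    2 * h + 3 ≤ Fintype.card ι := by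
  have h1 : ∑ x, a x * a x ≤ ∑ x, (if Odd (a x) then (1 : ℤ) else 4) := by
    refine Finset.sum_le_sum fun x _ => ?_
    obtain ⟨h2, h3⟩ := hs x
    have h4 := hne x
    by_cases hx : Odd (a x)
    · rw [if_pos hx]
      have : a x = 1 ∨ a x = -1 := by
        obtain ⟨t, ht⟩ := hx
        omega
      rcases this with h | h <;> rw [h] <;> norm_num
    · rw [if_neg hx]
      nlinarith
  rw [sum_b hO] at h1
  have h2 : ∑ x, a x * a x = 8 * h := ha
  rw [h2] at h1
  omega

end Bound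

section Main

variable {ι : Type*} [Fintype ι]

open Classical in
/-- The star case: all entries of `a` are small. -/
theorem entries_small {h : ℕ} (hh : 3 ≤ h) (V : ℕ → ι → ℤ) (a : ι → ℤ)
    (hV : ∀ i ∈ Finset.Ico 1 (2 * h), ∀ j ∈ Finset.Ico 1 (2 * h), i ≠ j → ip (V i - V j) (V i - V j) = 2)
    (hV0 : ∀ i ∈ Finset.Ico 1 (2 * h), ip (V 0 - V i) (V 0 - V i) = 3)
    (hV2 : ∀ i ∈ Finset.Ico 1 (2 * h), ip (V (2 * h) - V i) (V (2 * h) - V i) = 3)
    (ha : ∀ x, a x = V 0 x + V (2 * h) x + 2 * ∑ i ∈ Finset.Ico 1 (2 * h), (-1 : ℤ) ^ i * V i x) (x : ι) :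
    -2 ≤ a x ∧ a x ≤ 2 := by
  set s := Finset.Ico 1 (2 * h) with hs
  have hcard : s.card = 2 * h - 1 := by simp [hs]
  obtain ⟨w, hw⟩ := exists_center (s := s) (by omega) V hV
  -- the coordinates
  have hex : ∀ i ∈ s, ∃ (c : ι) (ε : ℤ), (ε = 1 ∨ ε = -1) ∧ V i - w = Pi.single c ε := fun i hi =>
    exists_single_of_ip_one (hw i hi)
  haveI : Nonempty ι := ⟨x⟩
  choose! c ε hε hc using hex
  have hinj : ∀ i ∈ s, ∀ j ∈ s, c i = c j → i = j := by
    intro i hi j hj hij
    by_contra hne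
    have h1 := hV i hi j hj hne
    have h2 : V i - V j = (V i - w) - (V j - w) := by abel
    rw [h2, hc i hi, hc j hj, hij, nsq_sub, ip_single_single, ip_single_single, ip_single_right] at h1
    simp only [Pi.single_eq_same] at h1
    rcases hε i hi with h3 | h3 <;> rcases hε j hj with h4 | h4 <;> rw [h3, h4] at h1 <;> norm_num at h1
  -- the two other vectors
  have hside : ∀ y : ι → ℤ, (∀ i ∈ s, ip (y - V i) (y - V i) = 3) →
      ip (y - w) (y - w) = 2 ∧ ∀ i ∈ s, (y - w) (c i) = 0 := by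
    intro y hy
    set f := y - w with hf
    have h1 : ∀ i ∈ s, ip f f = 2 + 2 * (f (c i) * ε i) := by
      intro i hi
      have h2 := hy i hi
      have h3 : y - V i = f - (V i - w) := by rw [hf]; abel
      rw [h3, hc i hi, nsq_sub, ip_single_single, ip_single_right] at h2
      have h4 : ε i * ε i = 1 := by
        rcases hε i hi with h | h <;> rw [h] <;> norm_num
      linarith
    obtain ⟨i₀, hi₀⟩ : s.Nonempty := Finset.card_pos.mp (by omega)
    set t := f (c i₀) * ε i₀ with ht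
    have h2 : ∀ i ∈ s, f (c i) * ε i = t := by
      intro i hi
      have h3 := h1 i hi
      have h4 := h1 i₀ hi₀
      omega
    have h3 : ∀ i ∈ s, f (c i) * f (c i) = t * t := by
      intro i hi
      rw [← h2 i hi]
      have h4 : ε i * ε i = 1 := by
        rcases hε i hi with h | h <;> rw [h] <;> norm_num
      calc f (c i) * f (c i) = f (c i) * f (c i) * (ε i * ε i) := by rw [h4, mul_one]
        _ = _ := by ring
    have h4 : (s.card : ℤ) * (t * t) ≤ ip f f := by
      have h5 : ∑ i ∈ s, f (c i) * f (c i) = (s.card : ℤ) * (t * t) := by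
        rw [Finset.sum_congr rfl h3, Finset.sum_const, nsmul_eq_mul]
      rw [← h5, ← Finset.sum_image (s := s) (g := c) (f := fun z => f z * f z) (fun i hi j hj hij => hinj i hi j hj hij)]
      exact Finset.sum_le_sum_of_subset_of_nonneg (Finset.subset_univ _) fun z _ _ => mul_self_nonneg _
    have h5 : (5 : ℤ) ≤ s.card := by
      rw [hcard]
      have : 5 ≤ 2 * h - 1 := by omega
      exact_mod_cast this
    have h6 := h1 i₀ hi₀
    rw [← ht] at h6
    have h7 : t = 0 := by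
      have h8 : 5 * (t * t) ≤ 2 + 2 * t := by
        have : 5 * (t * t) ≤ (s.card : ℤ) * (t * t) := by nlinarith [mul_self_nonneg t]
        linarith
      have h9 : t ≤ 0 := by nlinarith
      have h10 : 0 ≤ t := by nlinarith
      omega
    refine ⟨by omega, fun i hi => ?_⟩
    have h8 := h2 i hi
    rw [h7] at h8
    have h9 : ε i ≠ 0 := by
      rcases hε i hi with h | h <;> rw [h] <;> norm_num
    exact (mul_eq_zero.mp h8).resolve_right h9
  obtain ⟨hp1, hp2⟩ := hside (V 0) hV0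
  obtain ⟨hq1, hq2⟩ := hside (V (2 * h)) hV2
  -- the alternating sum
  have hV_eq : ∀ i ∈ s, V i x = w x + (Pi.single (c i) (ε i) : ι → ℤ) x := by
    intro i hi
    have h1 := congrFun (hc i hi) x
    simp only [Pi.sub_apply] at h1
    linarith
  have halt : ∑ i ∈ s, (-1 : ℤ) ^ i = -1 := by
    have key : ∀ m : ℕ, ∑ i ∈ Finset.Ico 1 (2 * m + 2), (-1 : ℤ) ^ i = -1 := by
      intro m
      induction m with
      | zero => simp
      | succ m ih =>
        have e : 2 * (m + 1) + 2 = (2 * m + 2) + 2 := by ring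
        rw [e, Finset.sum_Ico_succ_top (by omega), Finset.sum_Ico_succ_top (by omega), ih]
        have h1 : (-1 : ℤ) ^ (2 * m + 2) = 1 := by
          rw [pow_add, pow_mul]
          norm_num
        have h2 : (-1 : ℤ) ^ (2 * m + 2 + 1) = -1 := by
          rw [pow_succ, h1]
          norm_num
        rw [h1, h2]
        norm_num
    have e : 2 * h = 2 * (h - 1) + 2 := by omega
    rw [hs, e]
    exact key _
  have hsum : ∑ i ∈ s, (-1 : ℤ) ^ i * V i x = - w x + ∑ i ∈ s, (-1 : ℤ) ^ i * (Pi.single (c i) (ε i) : ι → ℤ) x := by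
    rw [Finset.sum_congr rfl fun i hi => by rw [hV_eq i hi, mul_add], Finset.sum_add_distrib, ← Finset.sum_mul, halt]
    ring
  have hax : a x = (V 0 - w) x + (V (2 * h) - w) x +
      2 * ∑ i ∈ s, (-1 : ℤ) ^ i * (Pi.single (c i) (ε i) : ι → ℤ) x := by
    rw [ha x, hsum]
    simp only [Pi.sub_apply]
    ring
  have hpx := abs_le_one_of_ip_two hp1 x
  have hqx := abs_le_one_of_ip_two hq1 x
  by_cases hx : ∃ i₀ ∈ s, c i₀ = x
  · obtain ⟨i₀, hi₀, rfl⟩ := hx
    have h1 : ∑ i ∈ s, (-1 : ℤ) ^ i * (Pi.single (c i) (ε i) : ι → ℤ) (c i₀) = (-1 : ℤ) ^ i₀ * ε i₀ := by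
      rw [Finset.sum_eq_single i₀]
      · simp
      · intro i hi hne
        have : c i₀ ≠ c i := fun h => hne (hinj i hi i₀ hi₀ h.symm)
        simp [Pi.single_apply, this]
      · intro h
        exact absurd hi₀ h
    rw [hax, h1, hp2 i₀ hi₀, hq2 i₀ hi₀]
    have h2 : (-1 : ℤ) ^ i₀ = 1 ∨ (-1 : ℤ) ^ i₀ = -1 := neg_one_pow_eq_or ℤ i₀
    rcases h2 with h2 | h2 <;> rcases hε i₀ hi₀ with h3 | h3 <;> rw [h2, h3] <;> norm_num
  · push Not at hx
    have h1 : ∑ i ∈ s, (-1 : ℤ) ^ i * (Pi.single (c i) (ε i) : ι → ℤ) x = 0 := by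
      refine Finset.sum_eq_zero fun i hi => ?_
      simp [Pi.single_apply, (hx i hi).symm]
    rw [hax, h1]
    omega

/-- **The numerics of a dihedral defect group.** -/
theorem numeric {h : ℕ} (hh : 1 ≤ h) (V : ℕ → ι → ℤ) (a : ι → ℤ)
    (hV : ∀ i ∈ Finset.Ico 1 (2 * h), ∀ j ∈ Finset.Ico 1 (2 * h), i ≠ j → ip (V i - V j) (V i - V j) = 2)
    (hV0 : ∀ i ∈ Finset.Ico 1 (2 * h), ip (V 0 - V i) (V 0 - V i) = 3)
    (hV2 : ∀ i ∈ Finset.Ico 1 (2 * h), ip (V (2 * h) - V i) (V (2 * h) - V i) = 3)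
    (hV02 : ip (V 0 - V (2 * h)) (V 0 - V (2 * h)) = 4)
    (ha : ∀ x, a x = V 0 x + V (2 * h) x + 2 * ∑ i ∈ Finset.Ico 1 (2 * h), (-1 : ℤ) ^ i * V i x)
    (haa : ip a a = 8 * h) (hne : ∀ x, a x ≠ 0) (hodd : ∃ x, Odd (a x))
    (hk : 2 * h + 1 ≤ Fintype.card ι) (h2 : h = 2 → Fintype.card ι ≠ 5) :
    Fintype.card ι = 2 * h + 3 ∧ (∀ x, -2 ≤ a x ∧ a x ≤ 2) ∧
      (open Classical in (Finset.univ.filter fun x => Odd (a x)).card = 4) := by
  classical
  have hcong : ∀ x, Odd (a x) ↔ Odd ((V 0 - V (2 * h)) x) := by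
    intro x
    rw [ha x]
    simp only [Pi.sub_apply]
    rw [Int.odd_iff, Int.odd_iff]
    omega
  have hO : (Finset.univ.filter fun x => Odd (a x)).card = 4 := by
    have h1 := card_odd_eq_four hV02 (by
      obtain ⟨x, hx⟩ := hodd
      exact ⟨x, (hcong x).mp hx⟩)
    rw [← h1]
    congr 1
    ext x
    simp only [Finset.mem_filter, Finset.mem_univ, true_and]
    exact hcong x
  have hup := card_le haa hne hO
  have hfour : 4 ≤ Fintype.card ι := by
    rw [← hO]
    exact Finset.card_le_univ _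
  have hsmall : ∀ x, -2 ≤ a x ∧ a x ≤ 2 := by
    by_cases hh3 : 3 ≤ h
    · exact entries_small hh3 V a hV hV0 hV2 ha
    · intro x
      by_contra hx
      have h3 := card_le_of_large haa hne hO hx
      have h4 : h = 1 ∨ h = 2 := by omega
      rcases h4 with h4 | h4
      · rw [h4] at h3
        omega
      · exact h2 h4 (by rw [h4] at h3 hk; omega)
  have hlow := le_card_of_small haa hne hO hsmall
  exact ⟨by omega, hsmall, hO⟩

end Main

end Cfsg.Agent.Lib.Dih.Num
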