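import Mathlib
import Cfsg.Agent.Lib.Dih.Num

/-!
# Fourier analysis on `ZMod q` for blocks with dihedral defect groups
-/

set_option linter.unusedSectionVars false
set_option linter.style.haveILetI false
set_option autoImplicit false

namespace Cfsg.Agent.Lib.Dih.Fou

open scoped ComplexConjugate
open Cfsg.Agent.Lib.Dih.Num

section Basic

variable {q : ℕ} [NeZero q]

/-- The standard additive character. -/
noncomputable abbrev psi (j : ZMod q) : ℂ := ZMod.stdAddChar (N := q) j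

theorem psi_add (a b : ZMod q) : psi (a + b) = psi a * psi b := AddChar.map_add_eq_mul _ a b

theorem psi_zero : psi (0 : ZMod q) = 1 := AddChar.map_zero_eq_one _

theorem psi_neg (a : ZMod q) : psi (-a) = conj (psi a) := AddChar.map_neg_eq_conj _ a

theorem conj_psi_neg (a : ZMod q) : conj (psi (-a)) = psi a := by
  rw [psi_neg, Complex.conj_conj]

theorem sum_psi (b : ZMod q) : ∑ j : ZMod q, psi (j * b) = if b = 0 then (q : ℂ) else 0 := by
  classical
  have h := AddChar.sum_mulShift (ψ := ZMod.stdAddChar (N := q)) b (ZMod.isPrimitive_stdAddChar q)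
  simp only [psi]
  rw [h, ZMod.card]
  split_ifs <;> simp

theorem sum_psi_mul (u v : ZMod q) :
    ∑ j : ZMod q, psi (-(u * j)) * psi (v * j) = if u = v then (q : ℂ) else 0 := by
  have h1 : ∀ j : ZMod q, psi (-(u * j)) * psi (v * j) = psi (j * (v - u)) := by
    intro j
    rw [← psi_add]
    congr 1
    ring
  simp_rw [h1]
  rw [sum_psi]
  by_cases h : u = v
  · rw [if_pos (sub_eq_zero.mpr h.symm), if_pos h]
  · rw [if_neg (fun h2 => h (sub_eq_zero.mp h2).symm), if_neg h]

theorem sum_psi_neg (u v : ZMod q) :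
    ∑ j : ZMod q, psi (-(u * j)) * psi (-(v * j)) = if u = -v then (q : ℂ) else 0 := by
  have h1 : ∀ j : ZMod q, psi (-(u * j)) * psi (-(v * j)) = psi (-(u * j)) * psi ((-v) * j) := by
    intro j
    congr 2
    ring
  simp_rw [h1]
  exact sum_psi_mul u (-v)

/-- The discrete Fourier transform. -/
noncomputable def dft (P : ZMod q → ℂ) (m : ZMod q) : ℂ :=
  (q : ℂ)⁻¹ * ∑ j : ZMod q, P j * psi (-(m * j))

theorem q_ne : (q : ℂ) ≠ 0 := Nat.cast_ne_zero.mpr (NeZero.ne q)

/-- The inversion formula. -/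
theorem dft_inv (P : ZMod q → ℂ) (j : ZMod q) : ∑ m : ZMod q, dft P m * psi (m * j) = P j := by
  classical
  simp only [dft, Finset.mul_sum, Finset.sum_mul]
  rw [Finset.sum_comm]
  have h1 : ∀ j' : ZMod q, ∑ m : ZMod q, (q : ℂ)⁻¹ * (P j' * psi (-(m * j'))) * psi (m * j) =
      (q : ℂ)⁻¹ * P j' * if j - j' = 0 then (q : ℂ) else 0 := by
    intro j'
    rw [← sum_psi, Finset.mul_sum]
    refine Finset.sum_congr rfl fun m _ => ?_
    have h2 : psi (m * (j - j')) = psi (-(m * j')) * psi (m * j) := by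
      rw [← psi_add]
      congr 1
      ring
    rw [h2]
    ring
  simp_rw [h1]
  rw [Finset.sum_eq_single j]
  · rw [if_pos (sub_self j)]
    field_simp [q_ne (q := q)]
  · intro j' _ hj
    rw [if_neg (fun h => hj (sub_eq_zero.mp h).symm), mul_zero]
  · intro h
    exact absurd (Finset.mem_univ _) h

/-- The function `κ`. -/
def kap (x y : ZMod q) : ℤ :=
  open Classical in (if x = y then 1 else 0) + (if x = -y then 1 else 0)

variable {ι : Type*} [Fintype ι]

/-- The difference of two coefficients. -/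
theorem dft_sub (P : ZMod q → ℂ) (a b : ZMod q) :
    dft P a - dft P b = (q : ℂ)⁻¹ * ∑ j : ZMod q, P j * (psi (-(a * j)) - psi (-(b * j))) := by
  simp only [dft, ← mul_sub, ← Finset.sum_sub_distrib]

/-- **The inner product of differences of coefficients.** -/
theorem inner4 (P : ι → ZMod q → ℂ)
    (hR : ∀ j j' : ZMod q, j ≠ 0 → j' ≠ 0 → ∑ x, P x j * conj (P x j') =
      (q : ℂ) * ((if j' = j then 1 else 0) + (if j' = -j then 1 else 0)))
    (a b d e : ZMod q) :
    ∑ x, (dft (P x) a - dft (P x) b) * conj (dft (P x) d - dft (P x) e) =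
      ((kap a d - kap a e - kap b d + kap b e : ℤ) : ℂ) := by
  classical
  have hq := q_ne (q := q)
  set T : ZMod q → ℂ := fun j => psi (-(a * j)) - psi (-(b * j)) with hT
  set S : ZMod q → ℂ := fun j => psi (-(d * j)) - psi (-(e * j)) with hS
  have hT0 : T 0 = 0 := by simp [hT]
  have hS0 : S 0 = 0 := by simp [hS]
  have h1 : ∀ x, (dft (P x) a - dft (P x) b) * conj (dft (P x) d - dft (P x) e) =
      ((q : ℂ)⁻¹ * (q : ℂ)⁻¹) * ∑ j, ∑ j', T j * conj (S j') * (P x j * conj (P x j')) := by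
    intro x
    rw [dft_sub, dft_sub, map_mul, map_sum, map_inv₀, Complex.conj_natCast]
    simp only [map_mul]
    rw [mul_mul_mul_comm, Finset.sum_mul_sum]
    congr 1
    refine Finset.sum_congr rfl fun j _ => Finset.sum_congr rfl fun j' _ => ?_
    ring
  simp_rw [h1]
  rw [← Finset.mul_sum, Finset.sum_comm]
  have h2 : ∀ j : ZMod q, ∑ x, ∑ j', T j * conj (S j') * (P x j * conj (P x j')) =
      (q : ℂ) * (T j * (conj (S j) + conj (S (-j)))) := by
    intro j
    rw [Finset.sum_comm]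
    have h3 : ∀ j' : ZMod q, ∑ x, T j * conj (S j') * (P x j * conj (P x j')) =
        T j * conj (S j') * ((q : ℂ) * ((if j' = j then 1 else 0) + (if j' = -j then 1 else 0))) := by
      intro j'
      rw [← Finset.mul_sum]
      by_cases hj : j = 0
      · rw [hj, hT0]
        simp
      by_cases hj' : j' = 0
      · rw [hj', hS0]
        simp
      rw [hR j j' hj hj']
    simp_rw [h3]
    have h4 : ∀ j' : ZMod q, T j * conj (S j') * ((q : ℂ) * ((if j' = j then 1 else 0) + (if j' = -j then 1 else 0))) =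
        (q : ℂ) * T j * ((if j' = j then conj (S j') else 0) + (if j' = -j then conj (S j') else 0)) := by
      intro j'
      by_cases h5 : j' = j <;> by_cases h6 : j' = -j
      · rw [if_pos h5, if_pos h6, if_pos h5, if_pos h6]
        ring
      · rw [if_pos h5, if_neg h6, if_pos h5, if_neg h6]
        ring
      · rw [if_neg h5, if_pos h6, if_neg h5, if_pos h6]
        ring
      · rw [if_neg h5, if_neg h6, if_neg h5, if_neg h6]
        ring
    simp_rw [h4]
    rw [← Finset.mul_sum, Finset.sum_add_distrib, Finset.sum_ite_eq', Finset.sum_ite_eq']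
    simp only [Finset.mem_univ, if_true]
    ring
  simp_rw [h2]
  rw [← Finset.mul_sum]
  have h5 : ∀ j : ZMod q, T j * (conj (S j) + conj (S (-j))) =
      psi (-(a * j)) * psi (d * j) - psi (-(a * j)) * psi (e * j) - psi (-(b * j)) * psi (d * j) +
        psi (-(b * j)) * psi (e * j) + psi (-(a * j)) * psi (-(d * j)) - psi (-(a * j)) * psi (-(e * j)) -
        psi (-(b * j)) * psi (-(d * j)) + psi (-(b * j)) * psi (-(e * j)) := by
    intro j
    have e1 : conj (S j) = psi (d * j) - psi (e * j) := by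
      simp only [hS, map_sub, conj_psi_neg]
    have e2 : conj (S (-j)) = psi (-(d * j)) - psi (-(e * j)) := by
      simp only [hS, map_sub]
      have e3 : -(d * -j) = d * j := by ring
      have e4 : -(e * -j) = e * j := by ring
      rw [e3, e4, ← psi_neg, ← psi_neg]
    rw [e1, e2]
    simp only [hT]
    ring
  simp_rw [h5]
  simp only [Finset.sum_add_distrib, Finset.sum_sub_distrib, sum_psi_mul, sum_psi_neg]
  have e : ∀ A : Prop, ∀ [Decidable A], (if A then (q : ℂ) else 0) = (q : ℂ) * (if A then 1 else 0) := by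
    intro A _
    split_ifs <;> simp
  simp only [e]
  simp only [kap]
  push_cast
  field_simp
  ring

/-- Differences of coefficients are orthogonal to whatever is orthogonal to the nonzero columns. -/
theorem dft_sub_ker (P : ι → ZMod q → ℂ) (Y : ι → ℂ) (hY : ∀ j : ZMod q, j ≠ 0 → ∑ x, P x j * Y x = 0)
    (a b : ZMod q) : ∑ x, (dft (P x) a - dft (P x) b) * Y x = 0 := by
  classical
  simp_rw [dft_sub, mul_assoc, Finset.sum_mul]
  rw [← Finset.mul_sum, Finset.sum_comm]
  have h : ∀ j : ZMod q, ∑ x, P x j * (psi (-(a * j)) - psi (-(b * j))) * Y x = 0 := by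
    intro j
    by_cases hj : j = 0
    · rw [hj]
      simp
    · have h1 := hY j hj
      calc ∑ x, P x j * (psi (-(a * j)) - psi (-(b * j))) * Y x
          = (psi (-(a * j)) - psi (-(b * j))) * ∑ x, P x j * Y x := by
            rw [Finset.mul_sum]
            refine Finset.sum_congr rfl fun x _ => ?_
            ring
        _ = 0 := by rw [h1, mul_zero]
  simp_rw [h]
  simp

end Basic

section Four

variable {q h : ℕ} [NeZero q] {ι : Type*} [Fintype ι]

theorem cast_eq_iff (hq : q = 4 * h) {i j : ℕ} (hi : i < q) (hj : j < q) : (i : ZMod q) = j ↔ i = j := by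
  rw [ZMod.natCast_eq_natCast_iff', Nat.mod_eq_of_lt hi, Nat.mod_eq_of_lt hj]

theorem cast_eq_neg_iff (hq : q = 4 * h) (hh : 1 ≤ h) {i j : ℕ} (hi : i ≤ 2 * h) (hj : j ≤ 2 * h) :
    (i : ZMod q) = -(j : ZMod q) ↔ i = j ∧ (i = 0 ∨ i = 2 * h) := by
  rw [eq_neg_iff_add_eq_zero, ← Nat.cast_add, ZMod.natCast_eq_zero_iff]
  constructor
  · rintro ⟨t, ht⟩
    have h1 : t = 0 ∨ t = 1 := by
      by_contra hcon
      have h2 : 2 ≤ t := by omega
      have h3 : q * 2 ≤ q * t := Nat.mul_le_mul_left _ h2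
      omega
    rcases h1 with h1 | h1
    · rw [h1] at ht
      omega
    · rw [h1] at ht
      omega
  · rintro ⟨rfl, h1⟩
    rcases h1 with h1 | h1
    · rw [h1]
      exact dvd_zero _
    · rw [h1]
      exact ⟨1, by omega⟩

theorem kap_cast (hq : q = 4 * h) (hh : 1 ≤ h) {i j : ℕ} (hi : i ≤ 2 * h) (hj : j ≤ 2 * h) :
    kap (i : ZMod q) (j : ZMod q) = if i = j then (if i = 0 ∨ i = 2 * h then 2 else 1) else 0 := by
  classical
  have h1 := cast_eq_iff (q := q) hq (i := i) (j := j) (by omega) (by omega)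
  have h2 := cast_eq_neg_iff (q := q) hq hh hi hj
  simp only [kap]
  by_cases h3 : i = j
  · by_cases h4 : i = 0 ∨ i = 2 * h
    · rw [if_pos (h1.mpr h3), if_pos (h2.mpr ⟨h3, h4⟩), if_pos h3, if_pos h4]
      norm_num
    · rw [if_pos (h1.mpr h3), if_neg (fun h5 => h4 (h2.mp h5).2), if_pos h3, if_neg h4]
      norm_num
  · rw [if_neg (fun h5 => h3 (h1.mp h5)), if_neg (fun h5 => h3 (h2.mp h5).1), if_neg h3]
    norm_num

theorem kap_comm (a b : ZMod q) : kap a b = kap b a := by
  classical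
  simp only [kap]
  by_cases h1 : a = b
  · subst h1
    rfl
  · have h2 : b ≠ a := fun h => h1 h.symm
    rw [if_neg h1, if_neg h2]
    congr 1
    by_cases h3 : a = -b
    · rw [if_pos h3, if_pos (by rw [h3, neg_neg])]
    · rw [if_neg h3, if_neg (fun h4 => h3 (by rw [h4, neg_neg]))]

variable (P : ι → ZMod q → ℂ)
  (hR : ∀ j j' : ZMod q, j ≠ 0 → j' ≠ 0 → ∑ x, P x j * conj (P x j') =
      (q : ℂ) * ((if j' = j then 1 else 0) + (if j' = -j then 1 else 0)))
  (c : ι → ZMod q → ℤ) (hc : ∀ x m, (c x m : ℂ) = dft (P x) m)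

include hR hc

theorem ip_c (a b : ZMod q) :
    ip (fun x => c x a - c x b) (fun x => c x a - c x b) = kap a a - 2 * kap a b + kap b b := by
  have h1 := inner4 P hR a b a b
  have h2 : (((ip (fun x => c x a - c x b) (fun x => c x a - c x b) : ℤ)) : ℂ) =
      ∑ x, (dft (P x) a - dft (P x) b) * conj (dft (P x) a - dft (P x) b) := by
    simp only [ip]
    push_cast
    refine Finset.sum_congr rfl fun x _ => ?_
    rw [← hc, ← hc]
    simp
  rw [h1] at h2
  have h3 : ip (fun x => c x a - c x b) (fun x => c x a - c x b) = kap a a - kap a b - kap b a + kap b b := by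
    exact_mod_cast h2
  rw [h3, kap_comm b a]
  ring

theorem c_neg (x : ι) (m : ZMod q) : c x (-m) = c x m := by
  have h1 := ip_c P hR c hc m (-m)
  have h2 : kap m m - 2 * kap m (-m) + kap (-m) (-m) = 0 := by
    classical
    have e1 : kap m (-m) = kap m m := by
      unfold kap
      rw [neg_neg, add_comm]
    have e2 : kap (-m) (-m) = kap m m := by
      unfold kap
      rw [neg_neg]
      by_cases h3 : m = -m
      · rw [if_pos rfl, if_pos h3, if_pos rfl, if_pos h3.symm]
      · rw [if_pos rfl, if_neg h3, if_pos rfl, if_neg (fun h => h3 h.symm)]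
    rw [e1, e2]
    ring
  rw [h2] at h1
  have h3 := congrFun (eq_zero_of_ip_self h1) x
  simp only [Pi.zero_apply] at h3
  omega

omit hR hc in
theorem sum_split (hq : q = 4 * h) (hh : 1 ≤ h) (f : ZMod q → ℂ) :
    ∑ m : ZMod q, f m = f ((0 : ℕ) : ZMod q) + f ((2 * h : ℕ) : ZMod q) +
      ∑ i ∈ Finset.Ico 1 (2 * h), (f ((i : ℕ) : ZMod q) + f (-((i : ℕ) : ZMod q))) := by
  subst hq
  have h1 : ∑ m : ZMod (4 * h), f m = ∑ i ∈ Finset.range (4 * h), f ((i : ℕ) : ZMod (4 * h)) := by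
    symm
    refine Finset.sum_nbij' (fun i => ((i : ℕ) : ZMod (4 * h))) ZMod.val ?_ ?_ ?_ ?_ ?_
    · intro i _
      exact Finset.mem_univ _
    · intro m _
      exact Finset.mem_range.mpr (ZMod.val_lt m)
    · intro i hi
      exact ZMod.val_cast_of_lt (Finset.mem_range.mp hi)
    · intro m _
      exact ZMod.natCast_zmod_val m
    · intro i _
      rfl
  rw [h1, Finset.range_eq_Ico]
  have h2 : ∀ g : ℕ → ℂ, ∑ i ∈ Finset.Ico 0 (4 * h), g i = g 0 + ∑ i ∈ Finset.Ico 1 (2 * h), g i + g (2 * h) +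
      ∑ i ∈ Finset.Ico (2 * h + 1) (4 * h), g i := by
    intro g
    rw [← Finset.sum_Ico_consecutive g (m := 0) (n := 2 * h + 1) (k := 4 * h) (by omega) (by omega),
      Finset.sum_Ico_succ_top (by omega), ← Finset.sum_Ico_consecutive g (m := 0) (n := 1) (k := 2 * h) (by omega) (by omega)]
    simp
  rw [h2]
  have h3 : ∑ i ∈ Finset.Ico (2 * h + 1) (4 * h), f ((i : ℕ) : ZMod (4 * h)) =
      ∑ i ∈ Finset.Ico 1 (2 * h), f (-((i : ℕ) : ZMod (4 * h))) := by
    have h4 := Finset.sum_Ico_reflect (fun i => f ((i : ℕ) : ZMod (4 * h))) (k := 1) (m := 2 * h) (n := 4 * h)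
      (by omega)
    have h5 : 4 * h + 1 - 2 * h = 2 * h + 1 := by omega
    have h6 : 4 * h + 1 - 1 = 4 * h := by omega
    rw [h5, h6] at h4
    rw [← h4]
    refine Finset.sum_congr rfl fun i hi => ?_
    have hi' := Finset.mem_Ico.mp hi
    congr 1
    rw [Nat.cast_sub (by omega)]
    simp
  rw [h3, Finset.sum_add_distrib]
  ring

omit hR hc in
theorem psi_two (hq : q = 4 * h) (hh : 1 ≤ h) : psi ((2 * h : ℕ) : ZMod q) = -1 := by
  have h1 : (((2 * h : ℕ) : ZMod q) + ((2 * h : ℕ) : ZMod q)) = 0 := by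
    rw [← Nat.cast_add, ZMod.natCast_eq_zero_iff]
    exact ⟨1, by omega⟩
  have h2 := psi_add ((2 * h : ℕ) : ZMod q) ((2 * h : ℕ) : ZMod q)
  rw [h1, psi_zero] at h2
  have h3 : psi ((2 * h : ℕ) : ZMod q) ≠ 1 := by
    intro h4
    have h5 : ZMod.stdAddChar (N := q) ((2 * h : ℕ) : ZMod q) = ZMod.stdAddChar (N := q) 0 := by
      rw [AddChar.map_zero_eq_one]
      exact h4
    have h6 := ZMod.injective_stdAddChar h5
    rw [ZMod.natCast_eq_zero_iff] at h6
    have := Nat.le_of_dvd (by omega) h6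
    omega
  have h4 : (psi ((2 * h : ℕ) : ZMod q) - 1) * (psi ((2 * h : ℕ) : ZMod q) + 1) = 0 := by
    linear_combination -h2
  rcases mul_eq_zero.mp h4 with h5 | h5
  · exact absurd (sub_eq_zero.mp h5) h3
  · linear_combination h5

omit hR hc in
theorem psi_two_mul (hq : q = 4 * h) (hh : 1 ≤ h) (i : ℕ) :
    psi (((i : ℕ) : ZMod q) * ((2 * h : ℕ) : ZMod q)) = (-1) ^ i := by
  have h1 : ((i : ℕ) : ZMod q) * ((2 * h : ℕ) : ZMod q) = i • ((2 * h : ℕ) : ZMod q) := by
    rw [nsmul_eq_mul]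
  rw [h1]
  simp only [psi]
  rw [AddChar.map_nsmul_eq_pow]
  congr 1
  exact psi_two hq hh

/-- The vectors `V i`. -/
def Vv (c : ι → ZMod q → ℤ) (i : ℕ) : ι → ℤ := fun x => c x ((i : ℕ) : ZMod q)

theorem ip_V (hq : q = 4 * h) (hh : 1 ≤ h) {i j : ℕ} (hi : i ≤ 2 * h) (hj : j ≤ 2 * h) (hij : i ≠ j) :
    ip (Vv c i - Vv c j) (Vv c i - Vv c j) =
      (if i = 0 ∨ i = 2 * h then 2 else 1) + (if j = 0 ∨ j = 2 * h then 2 else 1) := by
  have h1 := ip_c P hR c hc (i : ZMod q) (j : ZMod q)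
  have h2 : (Vv c i - Vv c j) = fun x => c x ((i : ℕ) : ZMod q) - c x ((j : ℕ) : ZMod q) := rfl
  rw [h2, h1, kap_cast hq hh hi hi, kap_cast hq hh hi hj, kap_cast hq hh hj hj, if_pos rfl, if_neg hij, if_pos rfl]
  ring

/-- The vector `a` in terms of the vectors `V i`. -/
theorem a_formula (hq : q = 4 * h) (hh : 1 ≤ h) (x : ι) :
    ((Vv c 0 x + Vv c (2 * h) x + 2 * ∑ i ∈ Finset.Ico 1 (2 * h), (-1 : ℤ) ^ i * Vv c i x : ℤ) : ℂ) =
      P x ((2 * h : ℕ) : ZMod q) := by
  rw [← dft_inv (P x) ((2 * h : ℕ) : ZMod q), sum_split hq hh]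
  have h0 : ((0 : ℕ) : ZMod q) * ((2 * h : ℕ) : ZMod q) = 0 := by simp
  have h1 : ((2 * h : ℕ) : ZMod q) * ((2 * h : ℕ) : ZMod q) = 0 := by
    rw [← Nat.cast_mul, ZMod.natCast_eq_zero_iff]
    exact ⟨h, by rw [hq]; ring⟩
  rw [h0, h1, psi_zero, mul_one, mul_one, ← hc, ← hc]
  have h2 : ∀ i ∈ Finset.Ico 1 (2 * h), dft (P x) ((i : ℕ) : ZMod q) * psi (((i : ℕ) : ZMod q) * ((2 * h : ℕ) : ZMod q)) +
      dft (P x) (-((i : ℕ) : ZMod q)) * psi (-((i : ℕ) : ZMod q) * ((2 * h : ℕ) : ZMod q)) =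
      2 * ((-1 : ℂ) ^ i * (c x ((i : ℕ) : ZMod q) : ℂ)) := by
    intro i _
    have h3 : -((i : ℕ) : ZMod q) * ((2 * h : ℕ) : ZMod q) = -(((i : ℕ) : ZMod q) * ((2 * h : ℕ) : ZMod q)) := by ring
    rw [h3, psi_neg, psi_two_mul hq hh, ← hc, ← hc, c_neg P hR c hc]
    simp only [map_pow, map_neg, map_one]
    ring
  rw [Finset.sum_congr rfl h2, ← Finset.mul_sum]
  simp only [Vv]
  push_cast
  ring

/-- **Independent vectors.** -/
theorem exists_indep (hq : q = 4 * h) (hh : 1 ≤ h) :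
    ∃ W : Fin (2 * h) → (ι → ℂ), LinearIndependent ℂ W ∧ ∀ i, ∀ Y : ι → ℂ,
      (∀ j : ZMod q, j ≠ 0 → ∑ x, P x j * Y x = 0) → ∑ x, W i x * Y x = 0 := by
  classical
  set idx : Fin (2 * h) → ℕ := fun i => if (i : ℕ) = 0 then 0 else (i : ℕ) + 1 with hidx
  have hle : ∀ i, idx i ≤ 2 * h := by
    intro i
    have := i.2
    simp only [hidx]
    split_ifs <;> omega
  have hne1 : ∀ i, idx i ≠ 1 := by
    intro i
    simp only [hidx]
    split_ifs <;> omega
  have hinj : ∀ i l, idx i = idx l → i = l := by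
    intro i l hil
    simp only [hidx] at hil
    apply Fin.ext
    split_ifs at hil <;> omega
  have h1le : 1 ≤ 2 * h := by omega
  set W : Fin (2 * h) → (ι → ℂ) := fun i x => dft (P x) ((idx i : ℕ) : ZMod q) - dft (P x) ((1 : ℕ) : ZMod q) with hW
  refine ⟨W, ?_, fun i Y hY => dft_sub_ker P Y hY _ _⟩
  rw [Fintype.linearIndependent_iff]
  intro g hg
  set e : Fin (2 * h) → ℤ := fun l => if idx l = 0 ∨ idx l = 2 * h then 2 else 1 with he
  have hepos : ∀ l, 0 < e l := by
    intro l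
    simp only [he]
    split_ifs <;> norm_num
  -- the Gram matrix
  have hG : ∀ i l, ∑ x, W i x * conj (W l x) = (if i = l then (e l : ℂ) else 0) + 1 := by
    intro i l
    have h1 := inner4 P hR ((idx i : ℕ) : ZMod q) ((1 : ℕ) : ZMod q) ((idx l : ℕ) : ZMod q) ((1 : ℕ) : ZMod q)
    simp only [hW]
    rw [h1, kap_cast hq hh (hle i) (hle l), kap_cast hq hh (hle i) h1le, kap_cast hq hh h1le (hle l),
      kap_cast hq hh h1le h1le]
    have e1 : (if idx i = 1 then (if idx i = 0 ∨ idx i = 2 * h then (2 : ℤ) else 1) else 0) = 0 := if_neg (hne1 i)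
    have e2 : (if 1 = idx l then (if 1 = 0 ∨ 1 = 2 * h then (2 : ℤ) else 1) else 0) = 0 := if_neg (hne1 l).symm
    have e3 : (if 1 = 1 then (if 1 = 0 ∨ 1 = 2 * h then (2 : ℤ) else 1) else 0) = 1 := by
      rw [if_pos rfl, if_neg (by omega)]
    rw [e1, e2, e3]
    by_cases hil : i = l
    · subst hil
      rw [if_pos rfl, if_pos rfl]
      simp only [he]
      push_cast
      ring
    · rw [if_neg (fun h2 => hil (hinj i l h2)), if_neg hil]
      norm_num
  set G := ∑ i, g i with hGs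
  have hl : ∀ l, g l * (e l : ℂ) + G = 0 := by
    intro l
    have h2 : ∑ x, (∑ i, g i • W i) x * conj (W l x) = 0 := by
      rw [hg]
      simp
    simp only [Finset.sum_apply, Pi.smul_apply, smul_eq_mul, Finset.sum_mul] at h2
    rw [Finset.sum_comm] at h2
    have h3 : ∀ i, ∑ x, g i * W i x * conj (W l x) = g i * ((if i = l then (e l : ℂ) else 0) + 1) := by
      intro i
      rw [← hG i l, Finset.mul_sum]
      refine Finset.sum_congr rfl fun x _ => ?_
      ring
    simp_rw [h3, mul_add, mul_one, mul_ite, mul_zero] at h2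
    rw [Finset.sum_add_distrib, Finset.sum_ite_eq'] at h2
    simpa using h2
  have hGzero : G = 0 := by
    have h2 : ∀ l, g l = -G * ((e l : ℂ))⁻¹ := by
      intro l
      have h3 : (e l : ℂ) ≠ 0 := by exact_mod_cast (hepos l).ne'
      field_simp
      linear_combination hl l
    have h3 : G * (1 + ∑ l, ((e l : ℂ))⁻¹) = 0 := by
      have h4 : G = ∑ l, -G * ((e l : ℂ))⁻¹ := by
        conv_lhs => rw [hGs]
        exact Finset.sum_congr rfl fun l _ => h2 l
      rw [← Finset.mul_sum] at h4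
      linear_combination h4
    have h4 : (1 + ∑ l, ((e l : ℂ))⁻¹) ≠ 0 := by
      have h5 : (1 + ∑ l, ((e l : ℂ))⁻¹) = ((1 + ∑ l, ((e l : ℝ))⁻¹ : ℝ) : ℂ) := by
        push_cast
        rfl
      rw [h5]
      have h6 : (0 : ℝ) < 1 + ∑ l, ((e l : ℝ))⁻¹ := by
        have h7 : (0 : ℝ) ≤ ∑ l, ((e l : ℝ))⁻¹ := Finset.sum_nonneg fun l _ => by
          have : (0 : ℝ) < e l := by exact_mod_cast hepos l
          positivity
        linarith
      exact_mod_cast h6.ne'
    exact (mul_eq_zero.mp h3).resolve_right h4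
  intro l
  have h2 := hl l
  rw [hGzero, add_zero] at h2
  have h3 : (e l : ℂ) ≠ 0 := by exact_mod_cast (hepos l).ne'
  exact (mul_eq_zero.mp h2).resolve_right h3

/-- **The numerics.** -/
theorem package (hq : q = 4 * h) (hh : 1 ≤ h) (a : ι → ℤ) (ha : ∀ x, (a x : ℂ) = P x ((2 * h : ℕ) : ZMod q))
    (hne : ∀ x, a x ≠ 0) (hodd : ∃ x, Odd (a x))
    (hk : 2 * h + 1 ≤ Fintype.card ι) (h2 : h = 2 → Fintype.card ι ≠ 5) :
    Fintype.card ι = 2 * h + 3 ∧ (∀ x, -2 ≤ a x ∧ a x ≤ 2) ∧
      (open Classical in (Finset.univ.filter fun x => Odd (a x)).card = 4) := by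
  classical
  have hmem : ∀ i ∈ Finset.Ico 1 (2 * h), i ≤ 2 * h ∧ ¬ (i = 0 ∨ i = 2 * h) := by
    intro i hi
    have := Finset.mem_Ico.mp hi
    omega
  have hz0 : ((2 * h : ℕ) : ZMod q) ≠ 0 := by
    rw [Ne, ZMod.natCast_eq_zero_iff]
    intro h3
    have := Nat.le_of_dvd (by omega) h3
    omega
  have hzneg : ((2 * h : ℕ) : ZMod q) = -((2 * h : ℕ) : ZMod q) := by
    rw [eq_neg_iff_add_eq_zero, ← Nat.cast_add, ZMod.natCast_eq_zero_iff]
    exact ⟨1, by omega⟩
  refine Cfsg.Agent.Lib.Dih.Num.numeric hh (Vv c) a ?_ ?_ ?_ ?_ ?_ ?_ hne hodd hk h2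
  · intro i hi j hj hij
    rw [ip_V P hR c hc hq hh (hmem i hi).1 (hmem j hj).1 hij, if_neg (hmem i hi).2, if_neg (hmem j hj).2]
    norm_num
  · intro i hi
    rw [ip_V P hR c hc hq hh (by omega) (hmem i hi).1 (by have := Finset.mem_Ico.mp hi; omega), if_pos (Or.inl rfl),
      if_neg (hmem i hi).2]
    norm_num
  · intro i hi
    rw [ip_V P hR c hc hq hh le_rfl (hmem i hi).1 (by have := Finset.mem_Ico.mp hi; omega), if_pos (Or.inr rfl),
      if_neg (hmem i hi).2]
    norm_num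
  · rw [ip_V P hR c hc hq hh (by omega) le_rfl (by omega), if_pos (Or.inl rfl), if_pos (Or.inr rfl)]
    norm_num
  · intro x
    have h3 := a_formula P hR c hc hq hh x
    rw [← ha x] at h3
    exact_mod_cast h3.symm
  · have h3 := hR _ _ hz0 hz0
    rw [if_pos rfl, if_pos hzneg] at h3
    have h4 : ((ip a a : ℤ) : ℂ) = ∑ x, P x ((2 * h : ℕ) : ZMod q) * conj (P x ((2 * h : ℕ) : ZMod q)) := by
      simp only [ip]
      rw [Int.cast_sum]
      refine Finset.sum_congr rfl fun x _ => ?_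
      rw [← ha]
      simp
    rw [h3, hq] at h4
    have h5 : ((ip a a : ℤ) : ℂ) = ((8 * (h : ℤ) : ℤ) : ℂ) := by
      rw [h4]
      push_cast
      ring
    exact_mod_cast h5

end Four

end Cfsg.Agent.Lib.Dih.Fou
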