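import Mathlib
import Cfsg.Agent.Lib.Contrib.Major
import Cfsg.Agent.Lib.Dih.Fou
import Cfsg.Agent.Lib.CharDeep.LinearChar

/-!
# The values of a major subsection with one modular constituent
-/

set_option linter.unusedSectionVars false
set_option linter.style.haveILetI false
set_option autoImplicit false

namespace Cfsg.Agent.Lib.Dih.Maj

open Cfsg MonoidAlgebra
open Cfsg.Agent.Lib.Blocks.Local Cfsg.Agent.Lib.Blocks.Central
open Cfsg.Agent.Lib.BlockH.Regular Cfsg.Agent.Lib.BlockP.Defect Cfsg.Agent.Lib.BlockH.MaxPair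
open Cfsg.Agent.Lib.Char.Ortho
open Cfsg.Agent.Lib.Contrib.Proj Cfsg.Agent.Lib.Contrib.Cyc Cfsg.Agent.Lib.Contrib.Family
open Cfsg.Agent.Lib.Contrib.Section Cfsg.Agent.Lib.Contrib.Sec Cfsg.Agent.Lib.Contrib.Major
open scoped ComplexConjugate

universe u

section Val

variable {M : Ideal AlgInt}

/-- Divisibility in the local ring, for rational integers. -/
theorem dvd_of_local (hM : IsPModular 2 M) (t : ℕ) (n : ℤ) {r : ℂ} (hr : MemLocalRing M r)
    (h : ((2 ^ t : ℕ) : ℂ) * r = (n : ℂ)) : (2 : ℤ) ^ t ∣ n := by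
  haveI := isPrime_of_pModular hM
  induction t generalizing n with
  | zero => simp
  | succ t ih =>
    have h2 : MemLocalIdeal M ((2 : ℕ) : ℂ) := (natCast_memLocalIdeal_iff hM 2).mpr dvd_rfl
    have h1 : MemLocalIdeal M (n : ℂ) := by
      rw [← h]
      have : ((2 ^ (t + 1) : ℕ) : ℂ) * r = ((2 : ℕ) : ℂ) * (((2 ^ t : ℕ) : ℂ) * r) := by
        push_cast
        ring
      rw [this]
      exact memLocalIdeal_mul_right h2 (memLocalRing_mul (memLocalRing_natCast _) hr)
    have h3 : ((2 : ℕ) : ℤ) ∣ n := (intCast_memLocalIdeal_iff hM n).mp h1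
    obtain ⟨n', rfl⟩ := h3
    have h4 : ((2 ^ t : ℕ) : ℂ) * r = (n' : ℂ) := by
      have h5 : (2 : ℂ) ≠ 0 := two_ne_zero
      apply mul_left_cancel₀ h5
      have h6 : ((2 ^ (t + 1) : ℕ) : ℂ) = 2 * ((2 ^ t : ℕ) : ℂ) := by
        push_cast
        ring
      rw [h6] at h
      push_cast at h ⊢
      linear_combination h
    have h7 := ih n' h4
    rw [pow_succ']
    exact mul_dvd_mul_left _ h7

/-- The exact power of two dividing a rational integer. -/
theorem val_of_unit (hM : IsPModular 2 M) (t : ℕ) (n : ℤ)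
    (h1 : MemLocalRing M ((n : ℂ) / ((2 ^ t : ℕ) : ℂ))) (h2 : ¬ MemLocalIdeal M ((n : ℂ) / ((2 ^ t : ℕ) : ℂ))) :
    (2 : ℤ) ^ t ∣ n ∧ ¬ (2 : ℤ) ^ (t + 1) ∣ n := by
  have h0 : ((2 ^ t : ℕ) : ℂ) ≠ 0 := Nat.cast_ne_zero.mpr (by positivity)
  refine ⟨dvd_of_local hM t n h1 (by field_simp), ?_⟩
  rintro ⟨n', rfl⟩
  apply h2
  have h3 : (((2 : ℤ) ^ (t + 1) * n' : ℤ) : ℂ) / ((2 ^ t : ℕ) : ℂ) = (((2 * n' : ℤ)) : ℂ) := by
    push_cast
    push_cast at h0
    field_simp
    ring
  rw [h3, intCast_memLocalIdeal_iff hM]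
  exact ⟨n', by push_cast; ring⟩

end Val

section Main

variable {G : Type u} [Group G] [Fintype G] [Fintype (IrrCharacter G)] {p : ℕ} {M : Ideal AlgInt}
  {x : G} [Fact p.Prime]
  [Fintype (Subgroup.centralizer ({x} : Set G))] [Fintype (IrrCharacter (Subgroup.centralizer ({x} : Set G)))]

/-- The contribution numbers of a character of height zero are as divisible as the heights say. -/
theorem mm_unit (hM : IsPModular p M) {k : ℕ} (hk : orderOf x = p ^ k)
    {B : Set (IrrCharacter G)} (hB : IsPBlock M B) [Fintype B]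
    {b : Set (IrrCharacter (Subgroup.centralizer ({x} : Set G)))}
    (hb : IsInducedBlock M (Subgroup.centralizer ({x} : Set G)) b B)
    (hq : blockDefect p b = blockDefect p B) (i j : B) (hi : blockHeight p B ((i : IrrCharacter G) : G → ℂ) = 0) :
    MemLocalRing M (mm p x b i j / ((p ^ blockHeight p B ((j : IrrCharacter G) : G → ℂ) : ℕ) : ℂ)) ∧
    ¬ MemLocalIdeal M (mm p x b i j / ((p ^ blockHeight p B ((j : IrrCharacter G) : G → ℂ) : ℕ) : ℂ)) := by
  classical
  haveI hMp := isPrime_of_pModular hM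
  have hp : p.Prime := Fact.out
  have hne := isPBlock_nonempty hB
  obtain ⟨m, hdef, hZ, hconj, hmul, htr, hnot, -⟩ := exists_matrix_def hM hk hB hb
  set w := Nat.card G / p ^ (Nat.card G).factorization p with hw
  have hwp : ¬ p ∣ w := Nat.not_dvd_ordCompl hp Nat.card_pos.ne'
  have hsame : ∀ (Z : Subalgebra.center ℂ (GA G)), Z ∈ localCenter M G → ∀ {a c : IrrCharacter G},
      a ∈ B → c ∈ B → MemLocalIdeal M (omegaHom a Z) → MemLocalIdeal M (omegaHom c Z) := by
    intro Z hZl a c ha hc hmem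
    have hs : SameBlock M (c : G → ℂ) (a : G → ℂ) := by
      have := isPBlock_eq_blockOf hB ha
      rw [this] at hc
      exact sameBlock_symm hc
    have h2 := omegaHom_sub_mem_of_sameBlock hs hZl
    have h3 := memLocalIdeal_add h2 hmem
    simpa using h3
  obtain ⟨Z, hZl, hΩ⟩ := exists_omega (M := M) hM hk hb.1 hne hq (i : IrrCharacter G)
  obtain ⟨ti, hti, ei⟩ := hΩ i i.2
  obtain ⟨tj, htj, ej⟩ := hΩ j j.2
  rw [hi, pow_zero, Nat.cast_one, div_one, ← hdef] at ei
  rw [ej]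
  obtain ⟨hu1, hu2⟩ := unit_aux (M := M) hM htj hwp
  obtain ⟨hv1, hv2⟩ := unit_aux (M := M) hM hti hwp
  have hωi : ¬ MemLocalIdeal M (omegaHom (i : IrrCharacter G) Z) := by
    intro h
    apply hnot i i hi hi
    rw [ei]
    exact memLocalIdeal_mul_left hv1 h
  have hωj : ¬ MemLocalIdeal M (omegaHom (j : IrrCharacter G) Z) := fun h =>
    hωi (hsame Z hZl j.2 i.2 h)
  have hl := omegaHom_mem_local (j : IrrCharacter G) hZl
  exact ⟨memLocalRing_mul hu1 hl, notMem_mul hu1 hu2 hl hωj⟩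

end Main

section Values

variable {G : Type u} [Group G] [Fintype G] [Fintype (IrrCharacter G)] {M : Ideal AlgInt} {x : G} [Fact (Nat.Prime 2)]

/-- **The values of a major subsection with the same regular part determine the heights.** -/
theorem major_vals (hM : IsPModular 2 M) {k : ℕ} (hk : orderOf x = 2 ^ k)
    {B : Set (IrrCharacter G)} (hB : IsPBlock M B) [Fintype B] {C : Subgroup G}
    (hC : C = Subgroup.centralizer ({x} : Set G)) [Fintype C] [Fintype (IrrCharacter C)]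
    {b : Set (IrrCharacter C)} (hb : IsInducedBlock M C b B) (hq : blockDefect 2 b = blockDefect 2 B)
    (a : B → ℤ) (F : C → ℂ)
    (hPP : ∀ (χ : B) (y : C), PP 2 b (fun c : C => ((χ : IrrCharacter G) : G → ℂ) (x * (c : G))) y = (a χ : ℂ) * F y)
    (hnorm : ∑ χ, (a χ) * (a χ) = 2 ^ blockDefect 2 b) (j : B) :
    (2 : ℤ) ^ blockHeight 2 B ((j : IrrCharacter G) : G → ℂ) ∣ a j ∧
      ¬ (2 : ℤ) ^ (blockHeight 2 B ((j : IrrCharacter G) : G → ℂ) + 1) ∣ a j := by
  classical
  haveI hMp := isPrime_of_pModular hM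
  subst hC
  obtain ⟨m, hdef, hZ, hconj, hmul, htr, hnot, -⟩ := exists_matrix_def hM hk hB hb
  have hF : ∀ χ : B, PP 2 b (vt x (χ : IrrCharacter G)) = fun y => (a χ : ℂ) * F y := fun χ => funext fun y => hPP χ y
  set κ : ℂ := ((2 ^ blockDefect 2 b : ℕ) : ℂ) * classInner F F with hκ
  have hmm : ∀ i j : B, mm 2 x b i j = (a i : ℂ) * (a j : ℂ) * κ := by
    intro i j
    rw [mm, hF i, hF j, hκ, classInner_def, classInner_def]
    have h1 : ∑ c, (a i : ℂ) * F c * conj ((a j : ℂ) * F c) = (a i : ℂ) * (a j : ℂ) * ∑ c, F c * conj (F c) := by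
      rw [Finset.mul_sum]
      refine Finset.sum_congr rfl fun c _ => ?_
      rw [map_mul, map_intCast]
      ring
    rw [h1]
    ring
  -- `κ` is the rank
  have hd0 : ((2 ^ blockDefect 2 b : ℕ) : ℂ) ≠ 0 := Nat.cast_ne_zero.mpr (by positivity)
  have hκl : κ = (blockRank 2 b : ℂ) := by
    have h1 : ∑ i, m i i = ∑ i : B, ((a i * a i : ℤ) : ℂ) * κ := by
      refine Finset.sum_congr rfl fun i _ => ?_
      rw [hdef, hmm]
      push_cast
      ring
    rw [htr, ← Finset.sum_mul, ← Int.cast_sum, hnorm] at h1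
    apply mul_left_cancel₀ hd0
    rw [Nat.cast_mul] at h1
    push_cast at h1 ⊢
    exact h1.symm
  set l : ℤ := (blockRank 2 b : ℤ) with hl
  have hκ' : κ = (l : ℂ) := by
    rw [hκl, hl]
    simp
  have hNN : ∀ i j : B, mm 2 x b i j = ((a i * a j * l : ℤ) : ℂ) := by
    intro i j
    rw [hmm, hκ']
    push_cast
    ring
  -- height zero
  obtain ⟨τ₀, hτ₀, hτe⟩ := exists_minExp 2 (isPBlock_nonempty hB)
  set τ : B := ⟨τ₀, hτ₀⟩ with hτd
  have hτ : blockHeight 2 B ((τ : IrrCharacter G) : G → ℂ) = 0 := by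
    change (charDegree (τ₀ : G → ℂ)).factorization 2 - minExp 2 B = 0
    omega
  have hτv : ¬ (2 : ℤ) ∣ a τ * a τ * l := by
    have h1 := mm_unit hM hk hB hb hq τ τ hτ
    rw [hNN] at h1
    have h2 := (val_of_unit hM _ _ h1.1 h1.2).2
    rw [hτ] at h2
    simpa using h2
  have h2τ : ¬ (2 : ℤ) ∣ a τ := fun h => hτv (Dvd.dvd.mul_right (Dvd.dvd.mul_right h _) _)
  have h2l : ¬ (2 : ℤ) ∣ l := fun h => hτv (Dvd.dvd.mul_left h _)
  have hj := mm_unit hM hk hB hb hq τ j hτ
  rw [hNN] at hj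
  obtain ⟨h1, h2⟩ := val_of_unit hM _ _ hj.1 hj.2
  set t := blockHeight 2 B ((j : IrrCharacter G) : G → ℂ) with ht
  refine ⟨?_, fun h3 => h2 ?_⟩
  · have h3 : IsCoprime ((2 : ℤ) ^ t) (a τ * l) := by
      apply IsCoprime.pow_left
      exact (Int.prime_two.coprime_iff_not_dvd).mpr (fun h4 => (Int.prime_two.dvd_or_dvd h4).elim h2τ h2l)
    refine h3.dvd_of_dvd_mul_left ?_
    have h4 : a τ * l * a j = a τ * a j * l := by ring
    rw [h4]
    exact h1
  · have h4 : a τ * a j * l = (a τ * l) * a j := by ring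
    rw [h4]
    exact Dvd.dvd.mul_left h3 _

end Values

section Dft

open Cfsg.Agent.Lib.Dih.Fou

variable {q : ℕ} [NeZero q]

/-- Coefficients of characters are natural numbers. -/
theorem exists_nat_dft {f : ZMod q → ℂ}
    (hf : IsCharacter (Multiplicative (ZMod q)) (fun a => f (Multiplicative.toAdd a))) (m : ZMod q) :
    ∃ n : ℕ, dft f m = n := by
  set lam : Multiplicative (ZMod q) →* ℂˣ :=
    MonoidHom.toHomUnits (AddChar.toMonoidHom (AddChar.mulShift (ZMod.stdAddChar (N := q)) m)) with hlam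
  have h1 := Cfsg.Agent.Lib.CharDeep.LinearChar.isCharacter_of_hom lam
  obtain ⟨n, hn⟩ := exists_nat_classInner hf h1
  refine ⟨n, ?_⟩
  rw [← hn, classInner_def, dft]
  have h2 : Nat.card (Multiplicative (ZMod q)) = q := by
    rw [Nat.card_congr Multiplicative.toAdd, Nat.card_zmod]
  rw [h2]
  congr 1
  refine Fintype.sum_equiv Multiplicative.ofAdd _ _ fun j => ?_
  congr 1
  change psi (-(m * j)) = conj (psi (m * j))
  exact psi_neg _

end Dft

end Cfsg.Agent.Lib.Dih.Maj
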