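import Mathlib
import Cfsg.Agent.Lib.Dih.Down
import Cfsg.Agent.Lib.Dih.Maj
import Cfsg.Agent.Lib.Blocks.ChainBlocks
import Cfsg.Agent.Lib.Blocks.ExtCrit

/-!
# Blocks with dihedral defect group: the sections through the rotations
-/

set_option linter.unusedSectionVars false
set_option linter.style.haveILetI false
set_option autoImplicit false

namespace Cfsg.Agent.Lib.Dih.Top

open Cfsg MonoidAlgebra
open Cfsg.Agent.Lib.Blocks.Local Cfsg.Agent.Lib.Blocks.Central Cfsg.Agent.Lib.Blocks.Main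
open Cfsg.Agent.Lib.BlockH.Transport Cfsg.Agent.Lib.BlockH.Descent
open Cfsg.Agent.Lib.BP.StarDefs Cfsg.Agent.Lib.BP.Star1 Cfsg.Agent.Lib.BP.Star2 Cfsg.Agent.Lib.BP.Nil1
open Cfsg.Agent.Lib.BP.Nil4
open Cfsg.Agent.Lib.Char.Basic Cfsg.Agent.Lib.Char.Complete Cfsg.Agent.Lib.Char.Ortho
open Cfsg.Agent.Lib.Contrib.Proj
open Cfsg.Agent.Lib.Dih.Grp Cfsg.Agent.Lib.Dih.Sect Cfsg.Agent.Lib.Dih.Down Cfsg.Agent.Lib.Dih.Fou
open scoped ComplexConjugate

universe u

theorem reg_one' {A : Type*} [Group A] : ¬ 2 ∣ orderOf (1 : A) := by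
  rw [orderOf_one]
  norm_num

section Transport

variable {A A' : Type*} [Group A] [Group A'] [Fintype A] [Fintype A']

/-- Transport of the scalar product. -/
theorem classInner_irrMap' (ρ : A ≃* A') (φ : A' → ℂ) (χ : IrrCharacter A) :
    classInner φ (irrMap ρ χ : A' → ℂ) = classInner (φ ∘ ρ) (χ : A → ℂ) := by
  rw [classInner, classInner, Nat.card_congr ρ.toEquiv]
  congr 1
  symm
  refine Fintype.sum_equiv ρ.toEquiv _ _ fun a => ?_
  simp only [Function.comp, MulEquiv.toEquiv_eq_coe, EquivLike.coe_coe, irrMap_apply, MulEquiv.symm_apply_apply]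

/-- Transport of the block part. -/
theorem blockPart_blockMap' [Fintype (IrrCharacter A)] [Fintype (IrrCharacter A')] (ρ : A ≃* A')
    (b : Set (IrrCharacter A)) (φ : A' → ℂ) (y : A) :
    blockPart (blockMap ρ b) φ (ρ y) = blockPart b (φ ∘ ρ) y := by
  classical
  rw [blockPart_apply, blockPart_apply]
  symm
  refine Fintype.sum_equiv (irrEquiv ρ) _ _ fun χ => ?_
  have h1 : (irrEquiv ρ) χ = irrMap ρ χ := rfl
  rw [h1]
  have h2 : irrMap ρ χ ∈ blockMap ρ b ↔ χ ∈ b := by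
    rw [mem_blockMap_iff]
    have : irrMap ρ.symm (irrMap ρ χ) = χ := (irrEquiv ρ).left_inv χ
    rw [this]
  by_cases h : χ ∈ b
  · rw [if_pos h, if_pos (h2.mpr h), classInner_irrMap', irrMap_apply_map]
  · rw [if_neg h, if_neg (fun h3 => h (h2.mp h3))]

end Transport

variable {G : Type u} [Group G] [Fintype G] [Fintype (IrrCharacter G)] {M : Ideal AlgInt}
  [Fact (Nat.Prime 2)] {B : Set (IrrCharacter G)} {K : Subgroup G}

attribute [local instance] fK fIrr fBl

/-- The restriction of a character. -/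
def resF (K : Subgroup G) (χ : IrrCharacter G) : K → ℂ := fun a => (χ : G → ℂ) (a : G)

theorem isCharacter_resF (χ : IrrCharacter G) : IsCharacter K (resF K χ) :=
  isCharacter_restrict K (isCharacter_of_isIrrCharacter χ.2)

theorem isClass_resF (χ : IrrCharacter G) : IsClassFunction K (resF K χ) :=
  isClassFunction_of_isCharacter (isCharacter_resF χ)

variable {D' : Subgroup K} {e' : Set (IrrCharacter (Subgroup.centralizer (D' : Set K)))} {β : Set (IrrCharacter K)}
  {q h m : ℕ} [NeZero q]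

/-- The setting: a block of the centralizer of the central involution of a dihedral group. -/
structure Setup (M : Ideal AlgInt) (B : Set (IrrCharacter G)) (K : Subgroup G) (D' : Subgroup K)
    (e' : Set (IrrCharacter (Subgroup.centralizer (D' : Set K)))) (β : Set (IrrCharacter K))
    (φ : DihedralGroup q ≃* D') (h m : ℕ) : Prop where
  hM : IsPModular 2 M
  hB : IsPBlock M B
  hq : q = 4 * h
  hh : 1 ≤ h
  hq2 : q = 2 ^ m
  hmx : IsMaximalBrauerPair 2 M β D' e'
  hind : IsInducedBlock M K β B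
  hctrl : ∀ t : G, Commute t ((zz φ h : K) : G) → t ∈ K
  hcent : ∀ k : K, Commute k (zz φ h)
  hdef : blockDefect 2 β = blockDefect 2 B

namespace Setup

variable {φ : DihedralGroup q ≃* D'} (S : Setup M B K D' e' β φ h m)

include S

theorem hnil : IsNilpotentBlock 2 M β :=
  isNilpotent_of_central S.hq S.hh S.hq2 S.hM S.hmx φ S.hcent

theorem order_coe (i : ZMod q) : ∃ a : ℕ, orderOf ((rr φ i : K) : G) = 2 ^ a := by
  obtain ⟨a, ha⟩ := exists_order_rr φ S.hq2 i
  exact ⟨a, by rw [Subgroup.orderOf_coe]; exact ha⟩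

theorem mem_K_of_conj {i j : ZMod q} (hi : i ≠ 0) (hj : j ≠ 0) {t : G}
    (ht : t * ((rr φ i : K) : G) * t⁻¹ = ((rr φ j : K) : G)) : t ∈ K := by
  obtain ⟨a, ha, h1⟩ := pow_eq_zz φ S.hq S.hq2 hi
  obtain ⟨b, hb, h2⟩ := pow_eq_zz φ S.hq S.hq2 hj
  have h3 : orderOf ((rr φ j : K) : G) = orderOf ((rr φ i : K) : G) := by
    rw [← ht, orderOf_conj']
  rw [Subgroup.orderOf_coe, Subgroup.orderOf_coe, ha, hb] at h3
  have h4 : a = b := by
    have := Nat.pow_right_injective (le_refl 2) h3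
    omega
  subst h4
  apply S.hctrl
  have h1' : ((rr φ i : K) : G) ^ 2 ^ a = ((zz φ h : K) : G) := by
    rw [← h1]
    rfl
  have h2' : ((rr φ j : K) : G) ^ 2 ^ a = ((zz φ h : K) : G) := by
    rw [← h2]
    rfl
  have h5 : t * ((zz φ h : K) : G) * t⁻¹ = ((zz φ h : K) : G) := by
    rw [← h1']
    conv_rhs => rw [h1', ← h2', ← ht]
    rw [conj_pow]
  calc t * ((zz φ h : K) : G) = (t * ((zz φ h : K) : G) * t⁻¹) * t := by group
    _ = ((zz φ h : K) : G) * t := by rw [h5]

theorem cZ_le {i : ZMod q} (hi : i ≠ 0) : cZ (((rr φ i : K) : G)) ≤ K := by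
  intro t ht
  have h1 : Commute t ((rr φ i : K) : G) := mem_cZ.mp ht
  refine S.mem_K_of_conj hi hi ?_
  rw [h1.eq]
  group

/-- The `p`-part of an element of a section. -/
theorem pPt_section (i : ZMod q) (k : cZ (rr φ i)) (hk : ¬ 2 ∣ orderOf k) :
    pPt 2 (((rr φ i * k : K)) : G) = ((rr φ i : K) : G) := by
  have h1 : Commute ((k : K) : G) ((rr φ i : K) : G) := by
    have := mem_cZ.mp k.2
    exact congrArg Subtype.val this
  have h2 : ¬ 2 ∣ orderOf ((k : K) : G) := by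
    rwa [Subgroup.orderOf_coe, Subgroup.orderOf_coe]
  exact pPt_mul (S.order_coe i) h1 h2

/-- The control of conjugation in the sections. -/
theorem hyp_compare {i j : ZMod q} (hi : i ≠ 0) (hj : j ≠ 0) (k : cZ (rr φ i)) (k' : cZ (rr φ j))
    (hk : ¬ 2 ∣ orderOf k) (hk' : ¬ 2 ∣ orderOf k') :
    ∑ χ : IrrCharacter G, resF K χ (rr φ i * k) * conj (resF K χ (rr φ j * k')) =
      ∑ τ : IrrCharacter K, (τ : K → ℂ) (rr φ i * k) * conj ((τ : K → ℂ) (rr φ j * k')) := by
  refine sum_irr_restrict K (rr φ i * k) (rr φ j * k') ?_ ?_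
  · intro t ht
    have h1 := pPt_conj (p := 2) t (((rr φ i * k : K)) : G)
    rw [ht, S.pPt_section i k hk, S.pPt_section j k' hk'] at h1
    exact S.mem_K_of_conj hi hj h1.symm
  · intro t ht
    have h1 := pPt_conj (p := 2) t (((rr φ j * k' : K)) : G)
    rw [ht, S.pPt_section j k' hk'] at h1
    exact S.mem_K_of_conj hj hj h1.symm

/-- The block at a rotation. -/
noncomputable def cc (φ : DihedralGroup q ≃* D') (e' : Set (IrrCharacter (Subgroup.centralizer (D' : Set K)))) (i : ZMod q) :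
    Set (IrrCharacter (cZ (rr φ i))) := bb 2 M e' (rr φ i)

theorem cc_spec (i : ZMod q) :
    IsPBlock M (cc (M := M) φ e' i) ∧ IsUnder 2 M e' (rr φ i) (cc (M := M) φ e' i) 1 :=
  bb_spec S.hM S.hmx (rr_mem φ i)

theorem cc_induced (i : ZMod q) : IsInducedBlock M (cZ (rr φ i)) (cc (M := M) φ e' i) β :=
  induced_of_under S.hM S.hmx (S.cc_spec i).2

omit S in
theorem map_z (i : ZMod q) :
    (Subgroup.zpowers (rr φ i)).map K.subtype = Subgroup.zpowers ((rr φ i : K) : G) :=
  MonoidHom.map_zpowers _ _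

/-- The identification of centralizers. -/
noncomputable def sig (S : Setup M B K D' e' β φ h m) {i : ZMod q} (hi : i ≠ 0) :
    cZ (rr φ i) ≃* cZ ((rr φ i : K) : G) := descEquiv (map_z i) (S.cZ_le hi)

/-- The block of the centralizer in `G`. -/
noncomputable def bG (S : Setup M B K D' e' β φ h m) {i : ZMod q} (hi : i ≠ 0) :
    Set (IrrCharacter (cZ ((rr φ i : K) : G))) := blockMap (sig S hi) (cc (M := M) φ e' i)

theorem bG_block {i : ZMod q} (hi : i ≠ 0) : IsPBlock M (bG S hi) := by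
  haveI := isPrime_of_pModular S.hM
  exact isPBlock_blockMap _ (S.cc_spec i).1

/-- **The block of the centralizer induces `B`.** -/
theorem bG_induced {i : ZMod q} (hi : i ≠ 0) : IsInducedBlock M (cZ ((rr φ i : K) : G)) (bG S hi) B := by
  classical
  haveI := isPrime_of_pModular S.hM
  obtain ⟨hb, -⟩ := S.cc_spec i
  obtain ⟨ξ, hξ⟩ := isPBlock_nonempty hb
  have h1 := S.cc_induced i
  rw [isPBlock_eq_blockOf hb hξ] at h1
  have h2 := Cfsg.Agent.Lib.Blocks.ChainBlocks.trans_induced (sig S hi) (fun y => rfl) h1 S.hind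
  have h3 : bG S hi = blockOf M ((irrMap (sig S hi) ξ : IrrCharacter _) : _ → ℂ) :=
    isPBlock_eq_blockOf (S.bG_block hi) (irrMap_mem_blockMap _ _ hξ)
  rw [h3]
  exact h2

/-- The transport of a section. -/
theorem section_transport {i : ZMod q} (hi : i ≠ 0) (χ : IrrCharacter G) (y : cZ (rr φ i)) :
    blockPart (bG S hi) (fun c : cZ ((rr φ i : K) : G) => (χ : G → ℂ) (((rr φ i : K) : G) * (c : G))) (sig S hi y) =
      Fs (resF K χ) (rr φ i) (cc (M := M) φ e' i) y := by
  classical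
  rw [show Fs (resF K χ) (rr φ i) (cc (M := M) φ e' i) y = _ from Fs_eq_blockPart (isClass_resF χ) (rr φ i) _ y]
  exact blockPart_blockMap' (sig S hi) _ _ y

section Family

variable {θ : IrrCharacter K} {g : IrrCharacter D' → IrrCharacter K}

/-- The values of the character of the defect group. -/
noncomputable def pp (φ : DihedralGroup q ≃* D') (g : IrrCharacter D' → IrrCharacter K) (χ : IrrCharacter G) (i : ZMod q) : ℂ :=
  piF g (resF K χ) (φ (DihedralGroup.r i))

variable (hg : ∀ ν, ((g ν : IrrCharacter K) : K → ℂ) = starFun 2 M e' (ν : D' → ℂ) (θ : K → ℂ))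
  (hinj : Function.Injective g) (hr : ∀ τ : IrrCharacter K, τ ∈ β ↔ τ ∈ Set.range g)

include hg hinj hr

/-- The section formula for a character of `G`. -/
theorem sec_formula (χ : IrrCharacter G) (i : ZMod q) {y : K} (hy : y ∈ cZ (rr φ i)) (hyp : ¬ 2 ∣ orderOf y) :
    Fs (resF K χ) (rr φ i) (cc (M := M) φ e' i) y =
      pp φ g χ i * Fs (θ : K → ℂ) (rr φ i) (cc (M := M) φ e' i) y :=
  Fs_class S.hM S.hnil S.hmx hg hinj hr (isClass_resF χ) (φ (DihedralGroup.r i)) hy hyp

/-- **Orthogonality of the values of the characters of the defect group.** -/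
theorem sum_pp (hθ : θ ∈ β) (h0 : blockHeight 2 β (θ : K → ℂ) = 0) {i j : ZMod q} (hi : i ≠ 0) (hj : j ≠ 0) :
    ∑ χ : IrrCharacter G, pp φ g χ i * conj (pp φ g χ j) =
      (q : ℂ) * ((if j = i then 1 else 0) + (if j = -i then 1 else 0)) := by
  classical
  have hcmp := sum_Fs_compare (p := 2) S.hM (S.cc_spec i).1 (S.cc_spec j).1 (y := 1) (y' := 1) reg_one' reg_one'
    (resF K) (fun τ : IrrCharacter K => (τ : K → ℂ)) isClass_resF (fun τ => class_irr τ)
    (fun k k' hk hk' => S.hyp_compare hi hj k k' hk hk')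
  simp only [Subgroup.coe_one] at hcmp
  have hone : ∀ i : ZMod q, (1 : K) ∈ cZ (rr φ i) := fun i => Subgroup.one_mem _
  have h1 : ∀ χ : IrrCharacter G, Fs (resF K χ) (rr φ i) (cc (M := M) φ e' i) 1 *
      conj (Fs (resF K χ) (rr φ j) (cc (M := M) φ e' j) 1) =
      pp φ g χ i * conj (pp φ g χ j) * (Fs (θ : K → ℂ) (rr φ i) (cc (M := M) φ e' i) 1 *
        conj (Fs (θ : K → ℂ) (rr φ j) (cc (M := M) φ e' j) 1)) := by
    intro χ
    rw [S.sec_formula hg hinj hr χ i (hone i) reg_one', S.sec_formula hg hinj hr χ j (hone j) reg_one', map_mul]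
    ring
  simp_rw [h1] at hcmp
  rw [← Finset.sum_mul] at hcmp
  have h2 := sum_Fs_family S.hM S.hnil S.hmx hg hinj hr (φ (DihedralGroup.r i)) (φ (DihedralGroup.r j)) (y := 1) (y' := 1)
    (hone i) reg_one' (hone j) reg_one'
  have h3 : ∑ τ : IrrCharacter K, Fs (τ : K → ℂ) (rr φ i) (cc (M := M) φ e' i) 1 *
      conj (Fs (τ : K → ℂ) (rr φ j) (cc (M := M) φ e' j) 1) = _ := h2
  rw [h3] at hcmp
  have h4 : Fs (θ : K → ℂ) (rr φ i) (cc (M := M) φ e' i) 1 ≠ 0 :=
    Fs_one_ne S.hM S.hmx hθ h0 (φ (DihedralGroup.r i))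
  have h5 : conj (Fs (θ : K → ℂ) (rr φ j) (cc (M := M) φ e' j) 1) ≠ 0 := by
    rw [Ne, map_eq_zero]
    exact Fs_one_ne S.hM S.hmx hθ h0 (φ (DihedralGroup.r j))
  have h6 := mul_right_cancel₀ (mul_ne_zero h4 h5) hcmp
  rw [h6]
  exact sum_irr_rr φ i j

/-- **The values outside the block vanish.** -/
theorem pp_eq_zero (hθ : θ ∈ β) (h0 : blockHeight 2 β (θ : K → ℂ) = 0) {i : ZMod q} (hi : i ≠ 0)
    {χ : IrrCharacter G} (hχ : χ ∉ B) : pp φ g χ i = 0 := by
  classical
  haveI := isPrime_of_pModular S.hM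
  have hBl : IsPBlock M (blockOf M (χ : G → ℂ)) := ⟨χ, rfl⟩
  have hnot : ¬ IsInducedBlock M (cZ ((rr φ i : K) : G)) (bG S hi) (blockOf M (χ : G → ℂ)) := by
    intro h1
    have h2 := Cfsg.Agent.Lib.Blocks.Induced.IsInducedBlock.unique _ h1 (S.bG_induced hi)
    apply hχ
    rw [← h2]
    exact mem_blockOf_self χ
  have h3 := second_main_gen S.hM (S.order_coe i) hBl (mem_blockOf_self χ) (cZ_eq _) (S.bG_block hi) hnot 1 reg_one'
  have h4 := S.section_transport hi χ 1
  rw [map_one, h3] at h4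
  have h5 := S.sec_formula hg hinj hr χ i (y := 1) (Subgroup.one_mem _) reg_one'
  have h6 : Fs (θ : K → ℂ) (rr φ i) (cc (M := M) φ e' i) 1 ≠ 0 :=
    Fs_one_ne S.hM S.hmx hθ h0 (φ (DihedralGroup.r i))
  have h7 : Fs (resF K χ) (rr φ i) (cc (M := M) φ e' i) (1 : K) = 0 := h4.symm
  rw [h7] at h5
  exact (mul_eq_zero.mp h5.symm).resolve_right h6

/-- **The values vanish against the regular classes.** -/
theorem sum_pp_conj_reg (hθ : θ ∈ β) (h0 : blockHeight 2 β (θ : K → ℂ) = 0) {i : ZMod q} (hi : i ≠ 0)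
    (g₀ : G) (hg₀ : ¬ 2 ∣ orderOf g₀) :
    ∑ χ : IrrCharacter G, pp φ g χ i * conj ((χ : G → ℂ) g₀) = 0 := by
  classical
  have hyp : ∀ k : cZ (rr φ i), ¬ 2 ∣ orderOf k →
      ∑ χ : IrrCharacter G, resF K χ (rr φ i * k) * conj ((χ : G → ℂ) g₀) = 0 := by
    intro k hk
    have h1 : ∀ χ : IrrCharacter G, resF K χ (rr φ i * k) = (χ : G → ℂ) (((rr φ i * k : K)) : G) := fun χ => rfl
    simp_rw [h1]
    rw [sum_irr_mul_conj, if_neg]
    intro hc
    obtain ⟨t, ht⟩ := isConj_iff.mp hc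
    have h2 := pPt_conj (p := 2) t (((rr φ i * k : K)) : G)
    have hreg : pPt 2 g₀ = 1 := pPt_eq ⟨g₀, by simp, Commute.one_left g₀, ⟨0, by simp⟩, hg₀⟩
    rw [ht, S.pPt_section i k hk, hreg] at h2
    have h3 : ((rr φ i : K) : G) = 1 := by
      have h4 : t * ((rr φ i : K) : G) * t⁻¹ = t * 1 * t⁻¹ := by
        rw [← h2]
        group
      simpa using h4
    have h5 : rr φ i = 1 := Subtype.ext h3
    rw [← rr_zero φ] at h5
    exact hi (rr_injective φ h5)
  have h1 := sum_Fs_zero S.hM (S.cc_spec i).1 (y := 1) reg_one' (resF K) isClass_resF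
    (fun χ => conj ((χ : G → ℂ) g₀)) hyp
  have h2 : ∀ χ : IrrCharacter G, Fs (resF K χ) (rr φ i) (cc (M := M) φ e' i) ((1 : cZ (rr φ i)) : K) * conj ((χ : G → ℂ) g₀) =
      Fs (θ : K → ℂ) (rr φ i) (cc (M := M) φ e' i) 1 * (pp φ g χ i * conj ((χ : G → ℂ) g₀)) := by
    intro χ
    have h3 := S.sec_formula hg hinj hr χ i (y := 1) (Subgroup.one_mem _) reg_one'
    rw [Subgroup.coe_one, h3]
    ring
  have h3 : ∑ χ : IrrCharacter G, Fs (resF K χ) (rr φ i) (cc (M := M) φ e' i) ((1 : cZ (rr φ i)) : K) * conj ((χ : G → ℂ) g₀) = 0 := h1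
  simp_rw [h2] at h3
  rw [← Finset.mul_sum] at h3
  exact (mul_eq_zero.mp h3).resolve_left (Fs_one_ne S.hM S.hmx hθ h0 (φ (DihedralGroup.r i)))

omit S hg hinj hr in
/-- The coefficients of `pp` are natural numbers. -/
theorem exists_nat_dft_pp (χ : IrrCharacter G) (m : ZMod q) : ∃ n : ℕ, dft (pp φ g χ) m = n := by
  classical
  apply Cfsg.Agent.Lib.Dih.Maj.exists_nat_dft
  have h1 : ∀ ν : IrrCharacter D', ∃ n : ℕ, classInner (resF K χ) ((g ν : IrrCharacter K) : K → ℂ) = n := fun ν =>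
    exists_nat_classInner (isCharacter_resF χ) (isCharacter_of_isIrrCharacter (g ν).2)
  choose n hn using h1
  let f : Multiplicative (ZMod q) →* D' :=
    { toFun := fun a => φ (DihedralGroup.r (Multiplicative.toAdd a))
      map_one' := by
        show φ (DihedralGroup.r 0) = 1
        rw [← DihedralGroup.one_def, map_one]
      map_mul' := fun a b => by
        rw [← map_mul, DihedralGroup.r_mul_r]
        rfl }
  have h2 : (fun a : Multiplicative (ZMod q) => pp φ g χ (Multiplicative.toAdd a)) =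
      ∑ ν : IrrCharacter D', (n ν • (((ν : IrrCharacter D') : D' → ℂ) ∘ f)) := by
    funext a
    simp only [pp, piF, hn, Finset.sum_apply, Pi.smul_apply, Function.comp, nsmul_eq_mul]
    rfl
  rw [h2]
  exact isCharacter_sum _ _ fun ν _ => isCharacter_nsmul (isCharacter_comp _ (isCharacter_of_isIrrCharacter ν.2)) _

end Family

end Setup

end Cfsg.Agent.Lib.Dih.Top
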