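import Mathlib
import Cfsg.Agent.Lib.Dih.Top
import Cfsg.Agent.Lib.KS84.Block
import Cfsg.Agent.Lib.BlockOne.Count
import Cfsg.Agent.Lib.Contrib.TwoMajor

/-!
# Blocks with dihedral defect group: the numerical invariants
-/

set_option linter.unusedSectionVars false
set_option linter.style.haveILetI false
set_option autoImplicit false

namespace Cfsg.Agent.Lib.Dih.Main

open Cfsg MonoidAlgebra
open Cfsg.Agent.Lib.Blocks.Local Cfsg.Agent.Lib.Blocks.Central Cfsg.Agent.Lib.Blocks.Main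
open Cfsg.Agent.Lib.BlockH.Transport Cfsg.Agent.Lib.BlockH.Descent
open Cfsg.Agent.Lib.BP.StarDefs Cfsg.Agent.Lib.BP.Star1 Cfsg.Agent.Lib.BP.Star2 Cfsg.Agent.Lib.BP.Nil1
open Cfsg.Agent.Lib.BP.Nil4
open Cfsg.Agent.Lib.Char.Basic Cfsg.Agent.Lib.Char.Complete Cfsg.Agent.Lib.Char.Ortho
open Cfsg.Agent.Lib.Contrib.Proj
open Cfsg.Agent.Lib.Dih.Grp Cfsg.Agent.Lib.Dih.Sect Cfsg.Agent.Lib.Dih.Down Cfsg.Agent.Lib.Dih.Fou
open Cfsg.Agent.Lib.Dih.Top
open scoped ComplexConjugate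

universe u

variable {G : Type u} [Group G] [Fintype G] [Fintype (IrrCharacter G)] {M : Ideal AlgInt}
  [Fact (Nat.Prime 2)] {B : Set (IrrCharacter G)} {K : Subgroup G}

attribute [local instance] fK fIrr fBl

/-- A sum over the block. -/
theorem sum_B_eq [Fintype B] (f : IrrCharacter G → ℂ) (hf : ∀ χ, χ ∉ B → f χ = 0) :
    ∑ x : B, f x = ∑ χ : IrrCharacter G, f χ := by
  classical
  rw [← Finset.sum_subtype (Finset.univ.filter (· ∈ B)) (by simp) f]
  refine Finset.sum_subset (Finset.subset_univ _) fun χ _ hχ => hf χ ?_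
  simpa using hχ

variable {D' : Subgroup K} {e' : Set (IrrCharacter (Subgroup.centralizer (D' : Set K)))} {β : Set (IrrCharacter K)}
  {q h m : ℕ} [NeZero q]

variable {φ : DihedralGroup q ≃* D'} {θ : IrrCharacter K} {g : IrrCharacter D' → IrrCharacter K}

/-- **The values at the central involution.** -/
theorem vals (S : Setup M B K D' e' β φ h m)
    (hg : ∀ ν, ((g ν : IrrCharacter K) : K → ℂ) = starFun 2 M e' (ν : D' → ℂ) (θ : K → ℂ))
    (hinj : Function.Injective g) (hr : ∀ τ : IrrCharacter K, τ ∈ β ↔ τ ∈ Set.range g)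
    [Fintype B] (a : B → ℤ) (ha : ∀ x : B, (a x : ℂ) = Setup.pp φ g x ((2 * h : ℕ) : ZMod q))
    (hR : ∑ x : B, Setup.pp φ g x ((2 * h : ℕ) : ZMod q) * conj (Setup.pp φ g x ((2 * h : ℕ) : ZMod q)) = (q : ℂ) * 2) (j : B) :
    2 ^ blockHeight 2 B ((j : IrrCharacter G) : G → ℂ) ∣ a j ∧
      ¬ 2 ^ (blockHeight 2 B ((j : IrrCharacter G) : G → ℂ) + 1) ∣ a j := by
  classical
  haveI := isPrime_of_pModular S.hM
  have hi₂ : ((2 * h : ℕ) : ZMod q) ≠ 0 := two_ne S.hq S.hh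
  set i₂ : ZMod q := ((2 * h : ℕ) : ZMod q) with hi₂def
  have hP : D' ≤ cZ (rr φ i₂) := fun d hd => mem_cZ.mpr (S.hcent d)
  have hw : rr φ i₂ ∈ D' := rr_mem φ i₂
  have hdef0 : blockDefect 2 (Setup.cc (M := M) φ e' i₂) = blockDefect 2 β :=
    blockDefect_eq' S.hM S.hmx hP hw (S.cc_spec i₂).2
  have hdefb : blockDefect 2 (Setup.bG S hi₂) = blockDefect 2 B := by
    rw [Setup.bG, Cfsg.Agent.Lib.Blocks.ExtCrit.blockDefect_blockMap, hdef0, S.hdef]
  obtain ⟨k, hk⟩ := S.order_coe i₂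
  have hcardD : (2 : ℕ) ^ blockDefect 2 β = 2 * q := by
    rw [← Cfsg.Agent.Lib.Blocks.Inducing.card_eq_pow_blockDefect S.hM S.hmx.1.2.1
      (Cfsg.Agent.Lib.BlockH.MaxPair.isDefectGroup_of_isMaximal S.hM S.hmx), ← Nat.card_congr φ.toEquiv, DihedralGroup.nat_card]
  have hnorm : ∑ x, a x * a x = 2 ^ blockDefect 2 (Setup.bG S hi₂) := by
    rw [hdefb, ← S.hdef]
    have h1 : ((∑ x, a x * a x : ℤ) : ℂ) = (((2 * q : ℕ) : ℤ) : ℂ) := by
      push_cast
      rw [mul_comm (2 : ℂ), ← hR]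
      refine Finset.sum_congr rfl fun x _ => ?_
      rw [← ha x, map_intCast]
    have h2 := Int.cast_injective h1
    rw [h2, ← hcardD]
    norm_cast
  let F : cZ ((rr φ i₂ : K) : G) → ℂ := fun y =>
    if 2 ∣ orderOf y then 0 else Fs (θ : K → ℂ) (rr φ i₂) (Setup.cc (M := M) φ e' i₂) (((Setup.sig S hi₂).symm y : cZ (rr φ i₂)) : K)
  refine Cfsg.Agent.Lib.Dih.Maj.major_vals S.hM hk S.hB (cZ_eq _) (S.bG_induced hi₂) hdefb a F ?_ hnorm j
  intro χ y
  rw [PP, Cfsg.Agent.Lib.BlockH.Regular.pRegularPart_apply]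
  by_cases hy : 2 ∣ orderOf y
  · rw [if_neg (show ¬ IsPRegular 2 y from fun h1 => h1 hy)]
    simp [F, hy]
  · rw [if_pos (show IsPRegular 2 y from hy)]
    have h1 := S.section_transport hi₂ (χ : IrrCharacter G) ((Setup.sig S hi₂).symm y)
    rw [MulEquiv.apply_symm_apply] at h1
    rw [h1]
    have h2 : ¬ 2 ∣ orderOf (((Setup.sig S hi₂).symm y : cZ (rr φ i₂)) : K) := by
      rw [Subgroup.orderOf_coe, MulEquiv.orderOf_eq]
      exact hy
    rw [S.sec_formula hg hinj hr (χ : IrrCharacter G) i₂ ((Setup.sig S hi₂).symm y).2 h2, ha χ]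
    simp [F, hy]

/-- **The numerical invariants.** -/
theorem main_setup (S : Setup M B K D' e' β φ h m)
    (hg : ∀ ν, ((g ν : IrrCharacter K) : K → ℂ) = starFun 2 M e' (ν : D' → ℂ) (θ : K → ℂ))
    (hinj : Function.Injective g) (hr : ∀ τ : IrrCharacter K, τ ∈ β ↔ τ ∈ Set.range g)
    (hθ : θ ∈ β) (h0 : blockHeight 2 β (θ : K → ℂ) = 0) [Fintype B]
    {D : Subgroup G} (hD : IsDefectGroup 2 M B D) (hDc : Nat.card D = 2 * q) :
    Fintype.card B = 2 * h + 3 ∧ 1 ≤ blockRank 2 B ∧ blockRank 2 B ≤ 3 ∧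
      Nat.card {χ : IrrCharacter G // χ ∈ B ∧ blockHeight 2 B (χ : G → ℂ) = 0} = 4 ∧
      ∀ χ ∈ B, blockHeight 2 B (χ : G → ℂ) ≤ 1 := by
  classical
  haveI := isPrime_of_pModular S.hM
  let P : B → ZMod q → ℂ := fun x j => Setup.pp φ g x j
  have hR : ∀ j j' : ZMod q, j ≠ 0 → j' ≠ 0 → ∑ x, P x j * conj (P x j') =
      (q : ℂ) * ((if j' = j then 1 else 0) + (if j' = -j then 1 else 0)) := by
    intro j j' hj hj'
    rw [← S.sum_pp hg hinj hr hθ h0 hj hj']
    exact sum_B_eq (fun χ => Setup.pp φ g χ j * conj (Setup.pp φ g χ j'))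
      (fun χ hχ => by rw [S.pp_eq_zero hg hinj hr hθ h0 hj hχ, zero_mul])
  choose c0 hc0 using fun (x : B) (m : ZMod q) => Setup.exists_nat_dft_pp (φ := φ) (g := g) (x : IrrCharacter G) m
  let c : B → ZMod q → ℤ := fun x m => c0 x m
  have hc : ∀ x m, (c x m : ℂ) = dft (P x) m := by
    intro x m
    simp only [c, P, Int.cast_natCast]
    exact (hc0 x m).symm
  let a : B → ℤ := fun x => Vv c 0 x + Vv c (2 * h) x + 2 * ∑ i ∈ Finset.Ico 1 (2 * h), (-1) ^ i * Vv c i x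
  have ha : ∀ x, (a x : ℂ) = P x ((2 * h : ℕ) : ZMod q) := a_formula P hR c hc S.hq S.hh
  have hval := vals S hg hinj hr a ha (by
    have h1 := hR _ _ (two_ne S.hq S.hh) (two_ne S.hq S.hh)
    rw [if_pos rfl, if_pos (neg_two S.hq).symm] at h1
    rw [show (q : ℂ) * 2 = (q : ℂ) * (1 + 1) by norm_num, ← h1])
  have hne : ∀ x, a x ≠ 0 := by
    intro x hx
    apply (hval x).2
    rw [hx]
    exact dvd_zero _
  have hodd : ∃ x, Odd (a x) := by
    obtain ⟨τ, hτ⟩ := Cfsg.Agent.Lib.Contrib.TwoMajor.exists_height_zero (p := 2) (isPBlock_nonempty S.hB)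
    refine ⟨τ, ?_⟩
    have h1 := (hval τ).2
    rw [hτ] at h1
    rw [← Int.not_even_iff_odd, even_iff_two_dvd]
    simpa using h1
  have hoddiff : ∀ x : B, Odd (a x) ↔ blockHeight 2 B ((x : IrrCharacter G) : G → ℂ) = 0 := by
    intro x
    constructor
    · intro h1
      by_contra h2
      have h3 : (2 : ℤ) ∣ a x :=
        (dvd_pow_self (2 : ℤ) h2).trans (hval x).1
      exact (Int.not_even_iff_odd.mpr h1) (even_iff_two_dvd.mpr h3)
    · intro h1
      have h2 := (hval x).2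
      rw [h1] at h2
      rw [← Int.not_even_iff_odd, even_iff_two_dvd]
      simpa using h2
  -- the rank
  let v : B → (G → ℂ) := fun x => pRegularPart 2 ((x : IrrCharacter G) : G → ℂ)
  let Ψ : (B → ℂ) →ₗ[ℂ] (G → ℂ) := Fintype.linearCombination ℂ v
  have hrank : blockRank 2 B = Module.finrank ℂ (LinearMap.range Ψ) := by
    rw [blockRank, Fintype.range_linearCombination, Set.image_eq_range]
  obtain ⟨W, hW, hWY⟩ := exists_indep P hR c hc S.hq S.hh
  have hWker : ∀ i, W i ∈ LinearMap.ker Ψ := by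
    intro i
    rw [LinearMap.mem_ker, Fintype.linearCombination_apply]
    funext g₀
    simp only [Finset.sum_apply, Pi.smul_apply, smul_eq_mul, Pi.zero_apply, v]
    by_cases hg₀ : 2 ∣ orderOf g₀
    · refine Finset.sum_eq_zero fun x _ => ?_
      rw [Cfsg.Agent.Lib.BlockH.Regular.pRegularPart_apply, if_neg (show ¬ IsPRegular 2 g₀ from fun h1 => h1 hg₀), mul_zero]
    · have h1 := hWY i (fun x => ((x : IrrCharacter G) : G → ℂ) g₀) (fun j hj => by
        have h2 := S.sum_pp_conj_reg hg hinj hr hθ h0 hj g₀⁻¹ (by rwa [orderOf_inv])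
        rw [← sum_B_eq _ (fun χ hχ => by rw [S.pp_eq_zero hg hinj hr hθ h0 hj hχ, zero_mul])] at h2
        rw [← h2]
        refine Finset.sum_congr rfl fun x _ => ?_
        rw [← char_inv_eq_conj (isCharacter_of_isIrrCharacter (x : IrrCharacter G).2), inv_inv])
      rw [← h1]
      refine Finset.sum_congr rfl fun x _ => ?_
      rw [Cfsg.Agent.Lib.BlockH.Regular.pRegularPart_apply, if_pos (show IsPRegular 2 g₀ from hg₀)]
  have hle : blockRank 2 B + 2 * h ≤ Fintype.card B := by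
    have h1 := LinearMap.finrank_range_add_finrank_ker Ψ
    rw [Module.finrank_fintype_fun_eq_card, ← hrank] at h1
    have h2 : Module.finrank ℂ (Submodule.span ℂ (Set.range W)) = 2 * h := by
      rw [finrank_span_eq_card hW, Fintype.card_fin]
    have h3 : Module.finrank ℂ (Submodule.span ℂ (Set.range W)) ≤ Module.finrank ℂ (LinearMap.ker Ψ) :=
      Submodule.finrank_mono (Submodule.span_le.mpr (by rintro _ ⟨i, rfl⟩; exact hWker i))
    omega
  have hl1 : 1 ≤ blockRank 2 B :=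
    Cfsg.Agent.Lib.BlockOne.Count.one_le_blockRank (isPBlock_nonempty S.hB)
  have hk : 2 * h + 1 ≤ Fintype.card B := by omega
  have h2 : h = 2 → Fintype.card B ≠ 5 := by
    intro hh hc5
    have hl : blockRank 2 B = 1 := by omega
    have hcB : Nat.card B = 5 := by rw [Nat.card_eq_fintype_card, hc5]
    have h3 := Cfsg.Agent.Lib.KS84.Block.card_defect_five_or_eight S.hM S.hB hD hl hcB
    rw [hDc, S.hq, hh] at h3
    omega
  obtain ⟨hcard, hbound, hfour⟩ := package P hR c hc S.hq S.hh a ha hne hodd hk h2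
  refine ⟨hcard, hl1, by omega, ?_, ?_⟩
  · have e1 : {χ : IrrCharacter G // χ ∈ B ∧ blockHeight 2 B (χ : G → ℂ) = 0} ≃
        {x : B // Odd (a x)} :=
      (Equiv.subtypeSubtypeEquivSubtypeInter (· ∈ B) (fun χ : IrrCharacter G => blockHeight 2 B (χ : G → ℂ) = 0)).symm.trans
        (Equiv.subtypeEquivRight fun x => (hoddiff x).symm)
    rw [Nat.card_congr e1, Nat.card_eq_fintype_card, Fintype.card_subtype, hfour]
  · intro χ hχ
    have h3 := (hval ⟨χ, hχ⟩).1
    have h4 := hne ⟨χ, hχ⟩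
    have h5 := hbound ⟨χ, hχ⟩
    by_contra h6
    have h7 : (4 : ℤ) ∣ a ⟨χ, hχ⟩ := by
      refine dvd_trans ?_ h3
      have h8 : 2 ≤ blockHeight 2 B (χ : G → ℂ) := by omega
      exact pow_dvd_pow (2 : ℤ) h8
    obtain ⟨t, ht⟩ := h7
    have ht0 : t ≠ 0 := by
      rintro rfl
      exact h4 (by simpa using ht)
    rw [ht] at h5
    omega

/-- **Blocks with dihedral defect group.** -/
theorem invariants {q h m : ℕ} [NeZero q] (hM : IsPModular 2 M) (hB : IsPBlock M B) {D : Subgroup G} (hD : IsDefectGroup 2 M B D)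
    (hq : q = 4 * h) (hh : 1 ≤ h) (hq2 : q = 2 ^ m) (φ : DihedralGroup q ≃* D) [Fintype B] :
    Fintype.card B = 2 * h + 3 ∧ 1 ≤ blockRank 2 B ∧ blockRank 2 B ≤ 3 ∧
      Nat.card {χ : IrrCharacter G // χ ∈ B ∧ blockHeight 2 B (χ : G → ℂ) = 0} = 4 ∧
      ∀ χ ∈ B, blockHeight 2 B (χ : G → ℂ) ≤ 1 := by
  classical
  haveI := isPrime_of_pModular hM
  obtain ⟨e, hmax⟩ := exists_pair_of_defect hM hB hD
  have hDz : D ≤ cZ (zz φ h) := fun d hd => mem_cZ.mpr (zz_commute φ hq hd)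
  have hz : zz φ h ∈ D := rr_mem φ _
  obtain ⟨hβ, hu⟩ := bb_spec hM hmax hz
  have hmx := isMaximal_down' hM hmax hDz hz hu
  let φ' : DihedralGroup q ≃* ((D.subgroupOf (cZ (zz φ h)) : Subgroup (cZ (zz φ h)))) :=
    φ.trans (Subgroup.subgroupOfEquivOfLe hDz).symm
  have S : Setup M B (cZ (zz φ h)) (D.subgroupOf (cZ (zz φ h))) (eDown' e hDz hz) (bb 2 M e (zz φ h)) φ' h m :=
    { hM := hM
      hB := hB
      hq := hq
      hh := hh
      hq2 := hq2
      hmx := hmx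
      hind := induced_of_under hM hmax hu
      hctrl := fun t ht => mem_cZ.mpr ht
      hcent := fun k => Subtype.ext (mem_cZ.mp k.2)
      hdef := blockDefect_eq' hM hmax hDz hz hu }
  obtain ⟨θ, hθ, h0, hs⟩ := exists_height_zero (p := 2) (isPBlock_nonempty hβ)
  obtain ⟨g, hg, hinj, hr⟩ := exists_star_family hM S.hnil hmx hθ h0 hs
  exact main_setup S hg hinj hr hθ h0 hD (by rw [← Nat.card_congr φ.toEquiv, DihedralGroup.nat_card])

end Cfsg.Agent.Lib.Dih.Main
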